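import Cfsg.Agent.Gagola.Group
import Cfsg.Agent.Char.Virtual
import Cfsg.Agent.Char.Kernel
import Cfsg.Agent.CharInd.Clifford
import Mathlib.RingTheory.IntegralClosure.IntegrallyClosed
import Mathlib.RingTheory.Int.Basic
import Mathlib.RingTheory.Localization.Rat

/-!
# Characters that are nonzero on exactly two classes (Gagola characters)
-/

set_option autoImplicit false
set_option linter.style.haveILetI false

open scoped ComplexConjugate

namespace Cfsg.Agent.Gagola

open Cfsg.Agent.Char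

theorem nat_dvd_of_div_isIntegral {a b : ℕ} (hb : b ≠ 0) (h : IsIntegral ℤ (-(a : ℂ) / b)) :
    b ∣ a := by
  have h' : IsIntegral ℤ ((-(a : ℚ) / b : ℚ)) := by
    rw [← isIntegral_algebraMap_iff (A := ℚ) (B := ℂ) (algebraMap ℚ ℂ).injective]
    simpa using h
  obtain ⟨m, hm⟩ := (IsIntegrallyClosed.isIntegral_iff (R := ℤ) (K := ℚ)).1 h'
  rw [eq_div_iff (Nat.cast_ne_zero.2 hb), eq_intCast] at hm
  have h2 : (b : ℤ) ∣ -(a : ℤ) := ⟨m, by rw [mul_comm]; exact_mod_cast hm.symm⟩
  exact Int.natCast_dvd_natCast.mp (Int.dvd_neg.mp h2)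

universe u

variable {G : Type u} [Group G]

/-- Everything that follows at once from the orthogonality relations. -/
structure Data (χ : IrrCharacter G) (N : Subgroup G) : Prop where
  normal : N.Normal
  mem_iff : ∀ g : G, (χ : G → ℂ) g ≠ 0 ↔ g ∈ N
  trans : ∀ a ∈ N, ∀ b ∈ N, a ≠ 1 → b ≠ 1 → IsConj a b
  ne_bot : N ≠ ⊥
  kernel : ∀ ψ : IrrCharacter G, ψ ≠ χ → ∀ n ∈ N, (ψ : G → ℂ) n = (ψ : G → ℂ) 1
  value : ∀ a ∈ N, a ≠ 1 → ((Nat.card N : ℂ) - 1) * (χ : G → ℂ) a = -(χ : G → ℂ) 1
  norm_sq : ((Nat.card N : ℂ) - 1) * (Nat.card G : ℂ) = (χ : G → ℂ) 1 ^ 2 * Nat.card N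

theorem exists_data [Finite G] (hG : 2 < Nat.card G) (χ : IrrCharacter G)
    (hχ : Nat.card {C : ConjClasses G // ∃ g ∈ C.carrier, (χ : G → ℂ) g ≠ 0} = 2) :
    ∃ N : Subgroup G, Data χ N := by
  classical
  letI := Fintype.ofFinite G
  have hcf := irr_isClassFunction χ.2
  have hd0 : (χ : G → ℂ) 1 ≠ 0 := irr_one_ne_zero χ.2
  let S := {C : ConjClasses G | ∃ g ∈ C.carrier, (χ : G → ℂ) g ≠ 0}
  have hS : S.ncard = 2 := by rw [← Nat.card_coe_set_eq]; exact hχ
  have hnz : ∀ g : G, (χ : G → ℂ) g ≠ 0 ↔ ConjClasses.mk g ∈ S := by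
    intro g
    refine ⟨fun h => ⟨g, ConjClasses.mem_carrier_mk, h⟩, ?_⟩
    rintro ⟨g', hg', h⟩
    rw [ConjClasses.mem_carrier_iff_mk_eq, ConjClasses.mk_eq_mk_iff_isConj] at hg'
    rwa [isClassFunction_eq_of_isConj hcf hg'.symm]
  have h1S : ConjClasses.mk (1 : G) ∈ S := (hnz 1).mp hd0
  obtain ⟨C, hC, hC1⟩ := Set.exists_ne_of_one_lt_ncard (by omega : 1 < S.ncard) (ConjClasses.mk 1)
  obtain ⟨x, rfl⟩ := ConjClasses.mk_surjective C
  have hx1 : x ≠ 1 := fun h => hC1 (by rw [h])
  have hsupp : ∀ g : G, (χ : G → ℂ) g ≠ 0 ↔ g = 1 ∨ IsConj x g := by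
    intro g
    rw [hnz]
    constructor
    · intro h
      have h2 : ({ConjClasses.mk 1, ConjClasses.mk x} : Set (ConjClasses G)) = S :=
        Set.eq_of_subset_of_ncard_le (Set.insert_subset h1S (Set.singleton_subset_iff.mpr hC))
          (by rw [hS, Set.ncard_pair hC1.symm]) (Set.toFinite _)
      rw [← h2] at h
      rcases h with h | h
      · rw [ConjClasses.mk_eq_mk_iff_isConj] at h
        exact Or.inl (isConj_one_left.mp h)
      · exact Or.inr (ConjClasses.mk_eq_mk_iff_isConj.mp (Eq.symm h))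
    · rintro (rfl | h)
      · exact h1S
      · rwa [← ConjClasses.mk_eq_mk_iff_isConj.mpr h]
  set T : Finset G := Finset.univ.filter fun g => IsConj x g with hT
  have hTmem : ∀ g, g ∈ T ↔ IsConj x g := by simp [hT]
  have hconj : ∀ g, IsConj x g → g ≠ 1 := by
    intro g hg h; subst h; exact hx1 (isConj_one_left.mp hg)
  -- orthogonality with an irreducible character, computed on the support
  have horth : ∀ ψ : IrrCharacter G, (Nat.card G : ℂ) * classInner (χ : G → ℂ) ψ =
      (χ : G → ℂ) 1 * conj ((ψ : G → ℂ) 1) + (T.card : ℂ) * ((χ : G → ℂ) x * conj ((ψ : G → ℂ) x)) := by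
    intro ψ
    rw [← sum_mul_conj_eq_card_mul_classInner]
    rw [← Finset.sum_subset (Finset.subset_univ (insert 1 T)) (fun g _ hg => by
      have : (χ : G → ℂ) g = 0 := by
        by_contra h
        rcases (hsupp g).mp h with rfl | h
        · exact hg (Finset.mem_insert_self _ _)
        · exact hg (Finset.mem_insert_of_mem ((hTmem g).mpr h))
      rw [this, zero_mul])]
    rw [Finset.sum_insert (fun h => hconj 1 ((hTmem 1).mp h) rfl)]
    congr 1
    rw [Finset.sum_congr rfl (fun g hg => by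
      rw [← isClassFunction_eq_of_isConj hcf ((hTmem g).mp hg),
        ← isClassFunction_eq_of_isConj (irr_isClassFunction ψ.2) ((hTmem g).mp hg)]),
      Finset.sum_const, nsmul_eq_mul]
  let triv : IrrCharacter G := ⟨fun _ => 1, isIrrCharacter_const_one⟩
  have htriv : triv ≠ χ := by
    intro h
    have hall : ∀ g : G, g ≠ 1 → IsConj x g := fun g hg =>
      (((hsupp g).mp (by rw [← h]; exact one_ne_zero)).resolve_left hg)
    have hidx : (Subgroup.centralizer ({x} : Set G)).index + 1 = Nat.card G := by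
      have horb : MulAction.orbit (ConjAct G) x = {(1 : G)}ᶜ := by
        ext b
        rw [ConjAct.mem_orbit_conjAct]
        exact ⟨fun hb => hconj b hb.symm, fun hb => (hall b hb).symm⟩
      have h1 : (Subgroup.centralizer ({x} : Set G)).index =
          (MulAction.orbit (ConjAct G) x).ncard := by
        rw [← MulAction.index_stabilizer, ConjAct.stabilizer_eq_centralizer]; rfl
      rw [h1, horb, add_comm, ← Set.ncard_singleton (1 : G), Set.ncard_add_ncard_compl]
    have h2 := (Subgroup.centralizer ({x} : Set G)).index_dvd_card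
    have h3 : (Subgroup.centralizer ({x} : Set G)).index ∣ 1 :=
      (Nat.dvd_add_right (dvd_refl _)).mp (hidx.symm ▸ h2)
    rw [Nat.dvd_one] at h3
    omega
  have hne0 : ∀ ψ : IrrCharacter G, ψ ≠ χ → classInner (χ : G → ℂ) ψ = 0 := fun ψ h =>
    classInner_irr_ne χ.2 ψ.2 fun e => h (Subtype.ext e.symm)
  have hv : (T.card : ℂ) * (χ : G → ℂ) x = -(χ : G → ℂ) 1 := by
    have h := horth triv
    rw [hne0 triv htriv, mul_zero] at h
    simp only [triv, map_one, mul_one] at h
    linear_combination -h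
  have hker : ∀ ψ : IrrCharacter G, ψ ≠ χ → (ψ : G → ℂ) x = (ψ : G → ℂ) 1 := by
    intro ψ hψ
    have h := horth ψ
    rw [hne0 ψ hψ, mul_zero, ← mul_assoc, hv] at h
    have h2 : conj ((ψ : G → ℂ) x) = conj ((ψ : G → ℂ) 1) :=
      mul_left_cancel₀ hd0 (by linear_combination h)
    exact star_injective h2
  choose K hKn hK using fun ψ : IrrCharacter G => isCharacter_exists_kernel (isCharacter_of_irr ψ.2)
  let N : Subgroup G := ⨅ ψ : {ψ : IrrCharacter G // ψ ≠ χ}, K ψ.1
  have hN : ∀ g, g ∈ N ↔ ∀ ψ : IrrCharacter G, ψ ≠ χ → (ψ : G → ℂ) g = (ψ : G → ℂ) 1 := by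
    intro g
    simp only [N, Subgroup.mem_iInf, Subtype.forall, hK]
  have hNn : N.Normal := Subgroup.normal_iInf_normal fun ψ => hKn ψ.1
  have hmem : ∀ g : G, (χ : G → ℂ) g ≠ 0 ↔ g ∈ N := by
    intro g
    constructor
    · intro h
      rcases (hsupp g).mp h with rfl | h
      · exact N.one_mem
      · rw [hN]; intro ψ hψ
        rw [← isClassFunction_eq_of_isConj (irr_isClassFunction ψ.2) h]; exact hker ψ hψ
    · intro hg h0
      rcases eq_or_ne g 1 with rfl | hg1
      · exact hd0 h0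
      have h := sum_irr_degree_mul g
      rw [if_neg hg1] at h
      choose m hm0 hm using fun ψ : IrrCharacter G => irr_one_pos ψ.2
      have h2 : ∑ ψ : IrrCharacter G, (ψ : G → ℂ) 1 * (ψ : G → ℂ) g =
          ((∑ ψ : IrrCharacter G, if ψ = χ then 0 else m ψ ^ 2 : ℕ) : ℂ) := by
        rw [Nat.cast_sum]
        refine Finset.sum_congr rfl fun ψ _ => ?_
        by_cases hψ : ψ = χ
        · rw [if_pos hψ, hψ, h0]; simp
        · rw [if_neg hψ, (hN g).mp hg ψ hψ, hm ψ]; push_cast; ring
      rw [h2] at h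
      have h3 := (Finset.sum_eq_zero_iff.mp (Nat.cast_eq_zero.mp h)) triv (Finset.mem_univ _)
      rw [if_neg htriv] at h3
      exact absurd h3 (pow_ne_zero 2 (hm0 triv).ne')
  have hNeq : ∀ g, g ∈ N ↔ g = 1 ∨ IsConj x g := fun g => (hmem g).symm.trans (hsupp g)
  have hcard : Nat.card N = T.card + 1 := by
    have h2 : (Finset.univ.filter fun g => g ∈ N) = insert 1 T := by
      ext g; simp [hNeq, hTmem]
    rw [Nat.card_eq_fintype_card, Fintype.card_subtype, h2,
      Finset.card_insert_of_notMem (fun h => hconj 1 ((hTmem 1).mp h) rfl)]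
  refine ⟨N, ⟨hNn, hmem, ?_, ?_, fun ψ hψ n hn => (hN n).mp hn ψ hψ, ?_, ?_⟩⟩
  · intro a ha b hb ha1 hb1
    exact ((((hNeq a).mp ha).resolve_left ha1).symm).trans (((hNeq b).mp hb).resolve_left hb1)
  · intro h
    exact hx1 (by simpa [h] using (hNeq x).mpr (Or.inr (IsConj.refl x)))
  · intro a ha ha1
    rw [← isClassFunction_eq_of_isConj hcf (((hNeq a).mp ha).resolve_left ha1), hcard]
    push_cast
    linear_combination hv
  · have h := horth χ
    rw [classInner_irr_self χ.2, mul_one] at h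
    obtain ⟨d, -, hd⟩ := irr_one_pos χ.2
    have hxint : conj ((T.card : ℂ) * (χ : G → ℂ) x) = -(χ : G → ℂ) 1 := by
      rw [hv, map_neg, hd, Complex.conj_natCast]
    rw [map_mul, Complex.conj_natCast] at hxint
    rw [hcard]
    rw [hd, Complex.conj_natCast] at h
    rw [hd] at hv hxint
    rw [hd]
    push_cast
    linear_combination (T.card : ℂ) * h + ((T.card : ℂ) * conj ((χ : G → ℂ) x)) * hv
      + (-(d : ℂ)) * hxint

variable {χ : IrrCharacter G} {N : Subgroup G}

theorem Data.eq_one_of_eq_degree [Finite G] (hd : Data χ N) {g : G}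
    (h : (χ : G → ℂ) g = (χ : G → ℂ) 1) : g = 1 := by
  by_contra hg1
  have hgN : g ∈ N := (hd.mem_iff g).mp (h ▸ irr_one_ne_zero χ.2)
  have h2 := hd.value g hgN hg1
  rw [h] at h2
  have h3 : (χ : G → ℂ) 1 * Nat.card N = 0 := by linear_combination h2
  rcases mul_eq_zero.mp h3 with h3 | h3
  · exact irr_one_ne_zero χ.2 h3
  · exact absurd (Nat.cast_eq_zero.mp h3) Nat.card_pos.ne'

theorem Data.eq_of_faithful (hd : Data χ N) {ψ : IrrCharacter G}
    (hψ : ∀ g : G, (ψ : G → ℂ) g = (ψ : G → ℂ) 1 → g = 1) : ψ = χ := by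
  by_contra h
  exact hd.ne_bot (N.eq_bot_iff_forall.mpr fun n hn => hψ n (hd.kernel ψ h n hn))

theorem Data.le_of_normal [Finite G] (hd : Data χ N) {K : Subgroup G} (hK : K.Normal)
    (hK1 : K ≠ ⊥) : N ≤ K := by
  classical
  letI := Fintype.ofFinite G
  obtain ⟨k, hk, hk1⟩ := K.bot_or_exists_ne_one.resolve_left hK1
  by_cases hmeet : ∃ a ∈ N, a ≠ 1 ∧ a ∈ K
  · obtain ⟨a, ha, ha1, haK⟩ := hmeet
    intro b hb
    rcases eq_or_ne b 1 with rfl | hb1
    · exact K.one_mem
    · obtain ⟨g, rfl⟩ := isConj_iff.mp (hd.trans a ha b hb ha1 hb1)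
      exact hK.conj_mem a haK g
  · push Not at hmeet
    exfalso
    -- `χ` would vanish on `K` off the identity and be nontrivial on it
    have hres := isCharacter_restrict (isCharacter_of_irr χ.2) K
    have hdeg : ∀ a : K, a ≠ 1 → (χ : G → ℂ) a = 0 := by
      intro a ha
      by_contra h
      exact hmeet a ((hd.mem_iff a).mp h) (fun h' => ha (Subtype.ext h')) a.2
    have hKN : k ∉ N := fun h => hmeet k h hk1 hk
    obtain ⟨ψ, hψ, hψk⟩ : ∃ ψ : IrrCharacter G,
        (∀ n ∈ N, (ψ : G → ℂ) n = (ψ : G → ℂ) 1) ∧ (ψ : G → ℂ) k ≠ (ψ : G → ℂ) 1 := by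
      haveI := hd.normal
      by_contra h
      push Not at h
      exact hKN ((mem_normal_iff_forall_irr N k).mpr h)
    obtain ⟨a, ha, ha1⟩ := N.bot_or_exists_ne_one.resolve_left hd.ne_bot
    have hcomm : Commute a k := by
      have h1 : a * k * a⁻¹ * k⁻¹ ∈ K := K.mul_mem (hK.conj_mem k hk a) (K.inv_mem hk)
      have h2 : a * k * a⁻¹ * k⁻¹ ∈ N := by
        have := N.mul_mem ha (hd.normal.conj_mem _ (N.inv_mem ha) k)
        simpa [mul_assoc] using this
      by_contra hne
      refine hmeet _ h2 (fun h => hne ?_) h1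
      exact mul_inv_eq_iff_eq_mul.mp (mul_inv_eq_one.mp h)
    have hconj : IsConj k (a * k) := by
      have h := sum_irr_mul_conj k (a * k)
      by_contra hn
      rw [if_neg hn] at h
      have h2 := sum_irr_mul_conj k k
      rw [if_pos (IsConj.refl k)] at h2
      have h3 : ∀ φ : IrrCharacter G, (φ : G → ℂ) k * conj ((φ : G → ℂ) (a * k)) =
          (φ : G → ℂ) k * conj ((φ : G → ℂ) k) := by
        intro φ
        by_cases hφ : φ = χ
        · have : (χ : G → ℂ) k = 0 := by
            by_contra hh; exact hKN ((hd.mem_iff k).mp hh)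
          rw [hφ, this, zero_mul, zero_mul]
        · rw [(isCharacter_mul_of_mem_ker (isCharacter_of_irr φ.2) (hd.kernel φ hφ a ha) k).1]
      rw [Finset.sum_congr rfl fun φ _ => h3 φ, h2] at h
      exact absurd (Nat.cast_eq_zero.mp h) Nat.card_pos.ne'
    obtain ⟨g, hg⟩ := isConj_iff.mp hconj
    have : a ∈ K := by
      have h1 := K.mul_mem (hK.conj_mem k hk g) (K.inv_mem hk)
      rwa [hg, mul_inv_cancel_right] at h1
    exact hmeet a ha ha1 this

theorem Data.exists_config [Finite G] (hd : Data χ N) :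
    ∃ p : ℕ, p.Prime ∧ Config p N := by
  classical
  letI := Fintype.ofFinite G
  haveI := hd.normal
  obtain ⟨x, hx, hx1⟩ := N.bot_or_exists_ne_one.resolve_left hd.ne_bot
  set p := (orderOf x).minFac
  have hp : p.Prime := Nat.minFac_prime (by simpa using hx1)
  haveI : Fact p.Prime := ⟨hp⟩
  have hord : ∀ a ∈ N, a ≠ 1 → orderOf a = p := by
    set y := x ^ (orderOf x / p)
    have hy : orderOf y = p := by
      rw [orderOf_pow_of_dvd]
      · rw [Nat.div_div_self (Nat.minFac_dvd _) (orderOf_pos x).ne']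
      · exact (Nat.div_pos (Nat.minFac_le (orderOf_pos x)) hp.pos).ne'
      · exact Nat.div_dvd_of_dvd (Nat.minFac_dvd _)
    have hy1 : y ≠ 1 := fun h => hp.one_lt.ne (by rw [← hy, h, orderOf_one])
    intro a ha ha1
    obtain ⟨g, rfl⟩ := isConj_iff.mp (hd.trans y (N.pow_mem hx _) a ha hy1 ha1)
    rw [← hy]
    exact orderOf_injective (MulAut.conj g).toMonoidHom (MulAut.conj g).injective y
  have hpow : ∀ a ∈ N, a ^ p = 1 := by
    intro a ha
    rcases eq_or_ne a 1 with rfl | ha1
    · exact one_pow _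
    · rw [← hord a ha ha1, pow_orderOf_eq_one]
  have hNp : IsPGroup p N := fun a => ⟨1, Subtype.ext (by simpa using hpow a a.2)⟩
  have hcomm : ∀ a ∈ N, ∀ b ∈ N, a * b = b * a := by
    haveI : Nontrivial N := Subgroup.nontrivial_iff_ne_bot N |>.mpr hd.ne_bot
    have hz := hNp.center_nontrivial
    obtain ⟨⟨z, hz'⟩, hz1⟩ := exists_ne (1 : Subgroup.center N)
    have hz1' : (z : G) ≠ 1 := fun h => hz1 (Subtype.ext (Subtype.ext h))
    intro a ha b hb
    rcases eq_or_ne a 1 with rfl | ha1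
    · simp
    obtain ⟨g, rfl⟩ := isConj_iff.mp (hd.trans z z.2 a ha hz1' ha1)
    have h1 : g⁻¹ * b * g ∈ N := by simpa using hd.normal.conj_mem b hb g⁻¹
    have h2 : g⁻¹ * b * g * (z : G) = z * (g⁻¹ * b * g) :=
      congrArg Subtype.val (Subgroup.mem_center_iff.mp hz' ⟨_, h1⟩)
    calc g * z * g⁻¹ * b = g * (z * (g⁻¹ * b * g)) * g⁻¹ := by group
      _ = g * (g⁻¹ * b * g * z) * g⁻¹ := by rw [h2]
      _ = b * (g * z * g⁻¹) := by group
  refine ⟨p, hp, ⟨hd.normal, hNp, hd.ne_bot, hcomm, hpow, hd.trans, ?_, ?_⟩⟩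
  · intro a ha ha1
    -- the order of the centraliser
    obtain ⟨n, hn⟩ := hNp.exists_card_eq
    obtain ⟨d, hd0, hdd⟩ := irr_one_pos χ.2
    have hidx : (Subgroup.centralizer ({a} : Set G)).index + 1 = Nat.card N := by
      have horb : MulAction.orbit (ConjAct G) a = (N : Set G) \ {1} := by
        ext b
        rw [ConjAct.mem_orbit_conjAct]
        constructor
        · intro hb
          obtain ⟨g, rfl⟩ := isConj_iff.mp hb.symm
          exact ⟨hd.normal.conj_mem a ha g, by simpa using ha1⟩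
        · rintro ⟨hb, hb1⟩
          exact hd.trans b hb a ha (by simpa using hb1) ha1
      have h1 : (Subgroup.centralizer ({a} : Set G)).index =
          (MulAction.orbit (ConjAct G) a).ncard := by
        rw [← MulAction.index_stabilizer, ConjAct.stabilizer_eq_centralizer]; rfl
      rw [h1, horb, Set.ncard_sdiff_singleton_add_one N.one_mem (Set.toFinite _),
        ← Nat.card_coe_set_eq]
      rfl
    set c := (Subgroup.centralizer ({a} : Set G)).index
    have hc0 : 0 < c := Nat.pos_of_ne_zero Subgroup.index_ne_zero_of_finite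
    have hv := hd.value a ha ha1
    rw [← hidx, hdd] at hv
    push_cast at hv
    have hcd : c ∣ d := by
      have hval : (χ : G → ℂ) a = -(d : ℂ) / (c : ℂ) := by
        rw [eq_div_iff (Nat.cast_ne_zero.mpr hc0.ne')]
        linear_combination hv
      exact nat_dvd_of_div_isIntegral hc0.ne'
        (hval ▸ isCharacter_isIntegral (isCharacter_of_irr χ.2) a)
    obtain ⟨e, rfl⟩ := hcd
    have he0 : 0 < e := Nat.pos_of_ne_zero fun h => by simp [h] at hd0
    have hcardG : Nat.card G = c * e ^ 2 * Nat.card N := by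
      have h := hd.norm_sq
      rw [hdd, ← hidx] at h
      have h2 : c * Nat.card G = c * (c * e ^ 2 * (c + 1)) := by
        have h3 : ((c * Nat.card G : ℕ) : ℂ) = ((c * (c * e ^ 2 * (c + 1)) : ℕ) : ℂ) := by
          push_cast at h ⊢
          linear_combination h
        exact_mod_cast h3
      rw [← hidx]
      exact Nat.eq_of_mul_eq_mul_left hc0 h2
    have hC : Nat.card (Subgroup.centralizer ({a} : Set G)) = e ^ 2 * Nat.card N := by
      refine Nat.eq_of_mul_eq_mul_right hc0 ?_
      rw [Subgroup.card_mul_index, hcardG]; ring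
    -- a prime other than `p` cannot divide `e`
    have hq : ∀ q : ℕ, q.Prime → q ∣ e → q = p := by
      intro q hqp hqe
      by_contra hqne
      haveI : Fact q.Prime := ⟨hqp⟩
      obtain ⟨Q⟩ := (inferInstance : Nonempty (Sylow q G))
      obtain ⟨k, hk⟩ := Q.isPGroup'.exists_card_eq
      have hvan : ∀ b : (Q : Subgroup G), b ≠ 1 → (χ : G → ℂ) b = 0 := by
        intro b hb
        by_contra h
        have hbN := (hd.mem_iff b).mp h
        have hb1 : (b : G) ≠ 1 := fun h' => hb (Subtype.ext h')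
        obtain ⟨j, hj⟩ := (IsPGroup.iff_orderOf.mp Q.isPGroup') b
        rw [← Subgroup.orderOf_coe, hord b hbN hb1] at hj
        rcases Nat.eq_zero_or_pos j with rfl | hj0
        · exact hp.one_lt.ne' (by simpa using hj)
        · exact hqne ((Nat.prime_dvd_prime_iff_eq hqp hp).mp (hj ▸ dvd_pow_self q hj0.ne'))
      obtain ⟨m, hm⟩ := isCharacter_classInner_nat
        (isCharacter_restrict (isCharacter_of_irr χ.2) (Q : Subgroup G))
        ⟨fun _ => 1, isIrrCharacter_const_one⟩
      have hsum : ((c * e : ℕ) : ℂ) = ((q ^ k * m : ℕ) : ℂ) := by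
        rw [← hdd, Nat.cast_mul, ← hk, ← hm, ← sum_mul_conj_eq_card_mul_classInner]
        rw [Finset.sum_eq_single (1 : (Q : Subgroup G))]
        · simp
        · intro b _ hb; rw [hvan b hb, zero_mul]
        · simp
      have hsum' : c * e = q ^ k * m := by exact_mod_cast hsum
      have hdvd : q ^ (k + 1) ∣ Nat.card G := by
        rw [hcardG, pow_succ]
        refine dvd_mul_of_dvd_left ?_ _
        calc q ^ k * q ∣ (c * e) * e := mul_dvd_mul ⟨m, hsum'⟩ hqe
          _ = c * e ^ 2 := by ring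
      have hmax : k + 1 ≤ (Nat.card G).factorization q :=
        (hqp.pow_dvd_iff_le_factorization Nat.card_pos.ne').mp hdvd
      have := Q.card_eq_multiplicity
      rw [hk] at this
      have := Nat.pow_right_injective hqp.two_le this
      omega
    obtain ⟨j, hj⟩ : ∃ j, e = p ^ j := ⟨_, Nat.eq_prime_pow_of_unique_prime_dvd he0.ne'
      fun {q} hqp hqe => hq q hqp hqe⟩
    refine IsPGroup.of_card (n := j * 2 + n) ?_
    rw [hC, hn, hj, pow_add, pow_mul]
  · intro z hz n hn
    have h := sum_irr_mul_conj z (z * n)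
    by_contra hn'
    rw [if_neg hn'] at h
    have h2 := sum_irr_mul_conj z z
    rw [if_pos (IsConj.refl z)] at h2
    have h3 : ∀ φ : IrrCharacter G, (φ : G → ℂ) z * conj ((φ : G → ℂ) (z * n)) =
        (φ : G → ℂ) z * conj ((φ : G → ℂ) z) := by
      intro φ
      by_cases hφ : φ = χ
      · have : (χ : G → ℂ) z = 0 := by
          by_contra hh; exact hz ((hd.mem_iff z).mp hh)
        rw [hφ, this, zero_mul, zero_mul]
      · rw [(isCharacter_mul_of_mem_ker (isCharacter_of_irr φ.2) (hd.kernel φ hφ n hn) z).2]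
    rw [Finset.sum_congr rfl fun φ _ => h3 φ, h2] at h
    exact absurd (Nat.cast_eq_zero.mp h) Nat.card_pos.ne'

/-- The two descriptions of `N` agree, so a given support is the one of the data. -/
theorem config_of_support [Finite G] (hG : 2 < Nat.card G) (χ : IrrCharacter G)
    (hχ : Nat.card {C : ConjClasses G // ∃ g ∈ C.carrier, (χ : G → ℂ) g ≠ 0} = 2)
    (p : ℕ) [hp : Fact p.Prime] (N : Subgroup G) (hN : ∀ g : G, g ∈ N ↔ (χ : G → ℂ) g ≠ 0)
    (hNp : IsPGroup p N) : Data χ N ∧ Config p N := by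
  obtain ⟨M, hM⟩ := exists_data hG χ hχ
  obtain rfl : M = N := SetLike.ext fun g => (hM.mem_iff g).symm.trans (hN g).symm
  obtain ⟨q, hq, hc⟩ := hM.exists_config
  obtain ⟨a, ha, ha1⟩ := hc.exists_ne_one
  obtain ⟨k, hk⟩ := (IsPGroup.iff_orderOf.mp hNp) ⟨a, ha⟩
  rw [Subgroup.orderOf_mk] at hk
  haveI : Fact q.Prime := ⟨hq⟩
  have hq' : orderOf a = q := orderOf_eq_prime (hc.pow a ha) ha1
  have : q = p := by
    rw [hq'] at hk
    exact (Nat.prime_dvd_prime_iff_eq hq hp.out).mp (hq.dvd_of_dvd_pow (dvd_of_eq hk))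
  exact ⟨hM, this ▸ hc⟩

/-- Stabilisers of nontrivial characters of `N` are Sylow subgroups. -/
theorem exists_sylow_inertia [Finite G] [N.Normal] {p : ℕ} [Fact p.Prime] (hd : Data χ N)
    (hc : Config p N) (μ : IrrCharacter N) (hμ : (μ : N → ℂ) ≠ fun _ => (1 : ℂ)) :
    ∃ P : Sylow p G, ∀ g : G, g ∈ (P : Subgroup G) ↔
      ∀ n n' : N, (n' : G) = g * n * g⁻¹ → (μ : N → ℂ) n' = (μ : N → ℂ) n := by
  classical
  letI := Fintype.ofFinite G
  let S : Subgroup G :=
    { carrier := {g | CharInd.conjChar N g (μ : N → ℂ) = μ}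
      one_mem' := CharInd.conjChar_one N _
      mul_mem' := fun {a b} ha hb => by
        show CharInd.conjChar N (a * b) (μ : N → ℂ) = μ
        rw [CharInd.conjChar_mul]
        exact (congrArg (CharInd.conjChar N b) ha).trans hb
      inv_mem' := fun {a} ha => by
        show CharInd.conjChar N a⁻¹ (μ : N → ℂ) = μ
        conv_lhs => rw [← (show CharInd.conjChar N a (μ : N → ℂ) = μ from ha)]
        rw [← CharInd.conjChar_mul, mul_inv_cancel, CharInd.conjChar_one] }
  have hS : ∀ g : G, g ∈ S ↔ ∀ n n' : N, (n' : G) = g * n * g⁻¹ →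
      (μ : N → ℂ) n' = (μ : N → ℂ) n := by
    intro g
    constructor
    · intro h n n' hn
      have h2 := congrFun (show CharInd.conjChar N g (μ : N → ℂ) = μ from h) n
      rw [CharInd.conjChar_apply] at h2
      rw [← h2]; exact congrArg (μ : N → ℂ) (Subtype.ext hn)
    · intro h
      exact funext fun n => h n ⟨_, hd.normal.conj_mem n n.2 g⟩ rfl
  -- `μ` is linear
  have hμ1 : (μ : N → ℂ) 1 = 1 := by
    obtain ⟨m, hm0, hm⟩ := irr_one_pos μ.2
    have h : (Nat.card N : ℂ) * classInner (μ : N → ℂ) μ = Nat.card N * (m : ℂ) ^ 2 := by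
      rw [← sum_mul_conj_eq_card_mul_classInner, Nat.card_eq_fintype_card]
      have hterm : ∀ n : N, (μ : N → ℂ) n * conj ((μ : N → ℂ) n) = (m : ℂ) ^ 2 := by
        intro n
        have hnc : n ∈ Subgroup.center N := Subgroup.mem_center_iff.mpr fun k =>
          Subtype.ext (hc.comm k k.2 n n.2)
        obtain ⟨ω, hω, hv, -⟩ := irr_mul_center μ.2 hnc
        have hω1 : ω * conj ω = 1 := by
          rw [Complex.mul_conj', Complex.norm_eq_one_of_pow_eq_one hω (orderOf_pos n).ne']
          simp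
        rw [hv, hm, map_mul, Complex.conj_natCast]
        linear_combination (m : ℂ) ^ 2 * hω1
      rw [Finset.sum_congr rfl fun n _ => hterm n, Finset.sum_const, nsmul_eq_mul, Finset.card_univ]
    rw [classInner_irr_self μ.2, mul_one] at h
    have h2 : Nat.card N * 1 = Nat.card N * m ^ 2 := by rw [mul_one]; exact_mod_cast h
    have h3 : m ^ 2 = 1 := (Nat.eq_of_mul_eq_mul_left Nat.card_pos h2).symm
    have h4 : m = 1 := by nlinarith
    rw [hm, h4, Nat.cast_one]
  -- multiplicity of `μ` in the restriction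
  obtain ⟨d, hd0, hdd⟩ := irr_one_pos χ.2
  have hsum0 : ∑ n : N, conj ((μ : N → ℂ) n) = 0 := by
    have h := classInner_irr_ne (isIrrCharacter_const_one (G := N)) μ.2 (fun e => hμ e.symm)
    have h2 := sum_mul_conj_eq_card_mul_classInner (fun _ : N => (1 : ℂ)) (μ : N → ℂ)
    simpa [h] using h2
  have hmult : ((Nat.card N : ℂ) - 1) * classInner (fun n : N => (χ : G → ℂ) n) (μ : N → ℂ) = d := by
    have h := sum_mul_conj_eq_card_mul_classInner (fun n : N => (χ : G → ℂ) n) (μ : N → ℂ)
    have hterm : ∀ n : N, ((Nat.card N : ℂ) - 1) * ((χ : G → ℂ) n * conj ((μ : N → ℂ) n)) =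
        (if n = 1 then (d : ℂ) * Nat.card N else 0) - (d : ℂ) * conj ((μ : N → ℂ) n) := by
      intro n
      by_cases hn : n = 1
      · subst hn
        rw [if_pos rfl, hμ1, map_one, OneMemClass.coe_one, hdd]
        ring
      · rw [if_neg hn, ← mul_assoc, hd.value n n.2 (fun e => hn (Subtype.ext e)), hdd]
        ring
    have h2 := Finset.sum_congr rfl fun n (_ : n ∈ Finset.univ) => hterm n
    rw [← Finset.mul_sum, h, Finset.sum_sub_distrib, ← Finset.mul_sum, hsum0,
      Finset.sum_ite_eq' Finset.univ (1 : N)] at h2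
    simp only [Finset.mem_univ, if_true, mul_zero, sub_zero] at h2
    have hN0 : (Nat.card N : ℂ) ≠ 0 := Nat.cast_ne_zero.mpr Nat.card_pos.ne'
    exact mul_left_cancel₀ hN0 (by linear_combination h2)
  have h0 : classInner (fun n : N => (χ : G → ℂ) n) (μ : N → ℂ) ≠ 0 := by
    intro h; rw [h, mul_zero] at hmult
    exact hd0.ne' (by exact_mod_cast hmult.symm)
  have hcl := congrFun (CharInd.clifford N χ.2 μ.2 h0) 1
  have horbit : ∀ ψ ∈ CharInd.conjClass N (μ : N → ℂ), ψ 1 = 1 := by
    intro ψ hψ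
    obtain ⟨g, rfl⟩ := (CharInd.mem_conjClass N).mp hψ
    rw [CharInd.conjChar_apply, ← hμ1]; refine congrArg (μ : N → ℂ) (Subtype.ext ?_); show g * (1 : G) * g⁻¹ = 1; group
  simp only [Pi.smul_apply, Finset.sum_apply, smul_eq_mul] at hcl
  rw [Finset.sum_congr rfl horbit, Finset.sum_const, nsmul_eq_mul, mul_one,
    OneMemClass.coe_one, hdd] at hcl
  have hcard : (CharInd.conjClass N (μ : N → ℂ)).card + 1 = Nat.card N := by
    have h : (d : ℂ) * ((Nat.card N : ℂ) - 1) = d * (CharInd.conjClass N (μ : N → ℂ)).card := by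
      linear_combination ((Nat.card N : ℂ) - 1) * hcl +
        ((CharInd.conjClass N (μ : N → ℂ)).card : ℂ) * hmult
    have hd' : (d : ℂ) ≠ 0 := Nat.cast_ne_zero.mpr hd0.ne'
    have h2 := mul_left_cancel₀ hd' h
    have h3 : ((CharInd.conjClass N (μ : N → ℂ)).card : ℂ) + 1 = Nat.card N := by
      linear_combination -h2
    exact_mod_cast h3
  -- orbit–stabiliser
  let f : G ⧸ S → CharInd.conjClass N (μ : N → ℂ) := fun q =>
    ⟨CharInd.conjChar N (q.out)⁻¹ (μ : N → ℂ), (CharInd.mem_conjClass N).mpr ⟨_, rfl⟩⟩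
  have hf : Function.Bijective f := by
    constructor
    · intro q r h
      have h1 := congrArg (CharInd.conjChar N r.out) (congrArg Subtype.val h)
      simp only [f, ← CharInd.conjChar_mul, inv_mul_cancel, CharInd.conjChar_one] at h1
      rw [← QuotientGroup.out_eq' q, ← QuotientGroup.out_eq' r]
      exact QuotientGroup.eq.mpr h1
    · rintro ⟨ψ, hψ⟩
      obtain ⟨g, rfl⟩ := (CharInd.mem_conjClass N).mp hψ
      obtain ⟨s, hs⟩ := QuotientGroup.mk_out_eq_mul S g⁻¹
      refine ⟨(g⁻¹ : G), Subtype.ext ?_⟩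
      show CharInd.conjChar N ((g⁻¹ : G) : G ⧸ S).out⁻¹ (μ : N → ℂ) = _
      rw [hs, mul_inv_rev, inv_inv, CharInd.conjChar_mul,
        show CharInd.conjChar N ((s : G)⁻¹) (μ : N → ℂ) = μ from S.inv_mem s.2]
  have hindex : S.index + 1 = Nat.card N := by
    rw [← hcard, ← Fintype.card_coe, ← Nat.card_eq_fintype_card, ← Nat.card_eq_of_bijective f hf]
    rfl
  obtain ⟨a, ha, ha1⟩ := hc.exists_ne_one
  obtain ⟨P, hP⟩ := hc.exists_sylow_eq ha ha1
  have hSP : Nat.card S = Nat.card (P : Subgroup G) := by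
    have h1 := hc.card_centralizer_coprime_index ha ha1
    rw [hP] at h1
    have h2 : S.index = (P : Subgroup G).index := by omega
    have h3 := S.card_mul_index
    rw [← (P : Subgroup G).card_mul_index, h2] at h3
    exact Nat.eq_of_mul_eq_mul_right (Nat.pos_of_ne_zero Subgroup.index_ne_zero_of_finite) h3
  obtain ⟨k, hk⟩ := P.isPGroup'.exists_card_eq
  have hSp : IsPGroup p S := IsPGroup.of_card (n := k) (hSP.trans hk)
  have hnd : ¬ p ∣ S.index := by
    have h1 := hc.card_centralizer_coprime_index ha ha1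
    have h2 := hc.not_dvd_index_centralizer ha ha1
    have : S.index = (Subgroup.centralizer ({a} : Set G)).index := by omega
    rwa [this]
  exact ⟨hSp.toSylow hnd, hS⟩

end Cfsg.Agent.Gagola
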