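import Cfsg.Prelude.Def_Transfer
import Cfsg.Agent.Cores.Basic
import Cfsg.Agent.Cores.Fitting
import Cfsg.Agent.Lib.FrobeniusComplement
import Cfsg.Agent.FusionSys.DihedralAut
import Cfsg.Agent.PermB.IndexTwo
import Cfsg.Agent.Transfer.Frobenius
import Mathlib.GroupTheory.SemidirectProduct

/-!
# Solvable linear groups transitive on the nonzero vectors with `p`-group stabilisers
-/

set_option autoImplicit false
set_option linter.style.haveILetI false
set_option linter.unusedSectionVars false

namespace Cfsg.Agent.Gagola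

universe u v

variable {H : Type u} [Group H] [Finite H] {p : ℕ} [hp : Fact p.Prime]

/-- `H` acts on `V`, transitively on `V ∖ {1}`, and the stabilisers are `p`-groups. -/
structure Act (p : ℕ) {H : Type u} [Group H] {V : Type v} [CommGroup V] (φ : H →* MulAut V) :
    Prop where
  pow : ∀ a : V, a ^ p = 1
  nontriv : Nontrivial V
  trans : ∀ a b : V, a ≠ 1 → b ≠ 1 → ∃ h : H, φ h a = b
  stab : ∀ h : H, ∀ a : V, a ≠ 1 → φ h a = a → ∃ k, orderOf h = p ^ k

/-- A `p`-free derived subgroup gives the conclusion. -/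
theorem finish_of_commutator (h : ∀ x ∈ commutator H, (∃ k, orderOf x = p ^ k) → x = 1) :
    Cfsg.HasNormalPComplement p H ∧ ∀ Q : Sylow p H, IsMulCommutative (Q : Subgroup H) := by
  have hab : ∀ Q : Sylow p H, IsMulCommutative (Q : Subgroup H) := by
    intro Q
    refine ⟨⟨fun a b => Subtype.ext ?_⟩⟩
    have h1 : (a : H) * b * (a : H)⁻¹ * (b : H)⁻¹ ∈ (Q : Subgroup H) :=
      Subgroup.mul_mem _ (Subgroup.mul_mem _ (Subgroup.mul_mem _ a.2 b.2) (Subgroup.inv_mem _ a.2))
        (Subgroup.inv_mem _ b.2)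
    obtain ⟨k, hk⟩ := IsPGroup.iff_orderOf.mp Q.isPGroup' ⟨_, h1⟩
    have h2 : (a : H) * b * (a : H)⁻¹ * (b : H)⁻¹ = 1 :=
      h _ (Subgroup.commutator_mem_commutator (Subgroup.mem_top _) (Subgroup.mem_top _))
        ⟨k, by rwa [Subgroup.orderOf_mk] at hk⟩
    show (a : H) * b = b * a
    calc (a : H) * b = (a : H) * b * (a : H)⁻¹ * (b : H)⁻¹ * ((b : H) * a) := by group
      _ = b * a := by rw [h2, one_mul]
  refine ⟨?_, hab⟩
  obtain ⟨P⟩ : Nonempty (Sylow p H) := inferInstance
  refine Cfsg.Agent.Transfer.hasNormalPComplement_of_normalizer_le_centralizer P fun g hg => ?_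
  rw [Subgroup.mem_centralizer_iff]
  intro x hx
  have h1 : g * x * g⁻¹ * x⁻¹ ∈ (P : Subgroup H) :=
    Subgroup.mul_mem _ ((Subgroup.mem_normalizer_iff.mp hg x).mp hx) (Subgroup.inv_mem _ hx)
  obtain ⟨k, hk⟩ := IsPGroup.iff_orderOf.mp P.isPGroup' ⟨_, h1⟩
  have h2 : g * x * g⁻¹ * x⁻¹ = 1 :=
    h _ (Subgroup.commutator_mem_commutator (Subgroup.mem_top _) (Subgroup.mem_top _))
      ⟨k, by rwa [Subgroup.orderOf_mk] at hk⟩
  calc x * g = 1 * (x * g) := (one_mul _).symm
    _ = g * x * g⁻¹ * x⁻¹ * (x * g) := by rw [h2]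
    _ = g * x := by group

/-- The automorphism of a normal subgroup by conjugation is trivial on centralising elements. -/
theorem mem_centralizer_of_conjNormal {N : Subgroup H} [N.Normal] {x : H}
    (h : MulAut.conjNormal (H := N) x = 1) : x ∈ Subgroup.centralizer (N : Set H) := by
  rw [Subgroup.mem_centralizer_iff]
  intro n hn
  have h1 := congrArg (fun f : MulAut N => (f ⟨n, hn⟩ : H)) h
  simp only [MulAut.conjNormal_apply, MulAut.one_apply] at h1
  exact (mul_inv_eq_iff_eq_mul.mp h1).symm

/-- Commutators centralise cyclic normal subgroups. -/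
theorem commutator_le_centralizer_of_isCyclic (N : Subgroup H) [N.Normal] [IsCyclic N] :
    commutator H ≤ Subgroup.centralizer (N : Set H) := by
  rw [_root_.commutator, Subgroup.commutator_le]
  intro a _ b _
  refine mem_centralizer_of_conjNormal ?_
  have hcomm : ∀ f g : MulAut N, f * g = g * f := by
    intro f g
    refine MulEquiv.ext fun x => ?_
    obtain ⟨m, hm⟩ := MonoidHom.map_cyclic f.toMonoidHom
    obtain ⟨n, hn⟩ := MonoidHom.map_cyclic g.toMonoidHom
    have hm' : ∀ y, f y = y ^ m := hm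
    have hn' : ∀ y, g y = y ^ n := hn
    rw [MulAut.mul_apply, MulAut.mul_apply, hn', hm', hn', hm', ← zpow_mul, ← zpow_mul, mul_comm]
  rw [map_commutatorElement, commutatorElement_eq_one_iff_mul_comm]
  exact hcomm _ _

variable (hs : Group.IsSolvable H) (hO : Cfsg.pCore p H = ⊥)
include hs hO

/-- A `p`-element centralising every core is trivial. -/
theorem eq_one_of_centralizes {x : H} (hx : ∃ k, orderOf x = p ^ k)
    (h : ∀ q : ℕ, q.Prime → x ∈ Subgroup.centralizer (Cfsg.pCore q H : Set H)) : x = 1 := by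
  haveI := hs
  have hxF : x ∈ Cfsg.fittingSubgroup H := by
    refine Cores.centralizer_fittingSubgroup_le ?_
    rw [Subgroup.mem_centralizer_iff]
    intro y hy
    have hle : Cfsg.fittingSubgroup H ≤ Subgroup.centralizer ({x} : Set H) := by
      rw [Cores.fittingSubgroup_eq_iSup_pCore]
      refine iSup_le fun q z hz => Subgroup.mem_centralizer_singleton_iff.mpr ?_
      exact Subgroup.mem_centralizer_iff.mp (h _ q.2) z hz
    exact Subgroup.mem_centralizer_singleton_iff.mp (hle hy)
  set F := Cfsg.fittingSubgroup H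
  haveI : Group.IsNilpotent F := Cores.fittingSubgroup_isNilpotent
  obtain ⟨k, hk⟩ := hx
  have hz : IsPGroup p (Subgroup.zpowers (⟨x, hxF⟩ : F)) :=
    IsPGroup.of_card (n := k) (by rw [Nat.card_zpowers, Subgroup.orderOf_mk, hk])
  obtain ⟨P, hP⟩ := hz.exists_le_sylow
  have hPn : ((P : Subgroup F)).Normal :=
    (((Group.isNilpotent_of_finite_tfae (G := F)).out 0 3 :
      Group.IsNilpotent F ↔ ∀ (p : ℕ) (_hp : Fact p.Prime) (P : Sylow p F),
        (P : Subgroup F).Normal).mp inferInstance) p hp P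
  haveI := P.characteristic_of_normal hPn
  have h1 : ((P : Subgroup F).map F.subtype) ≤ Cfsg.pCore p H :=
    Cores.le_pCore inferInstance (P.isPGroup'.map _)
  have h2 := h1 ⟨⟨x, hxF⟩, hP (Subgroup.mem_zpowers _), rfl⟩
  rwa [hO, Subgroup.mem_bot] at h2

variable {V : Type v} [CommGroup V] [Finite V] {φ : H →* MulAut V} (hφ : Act p φ)
include hφ

/-- The Sylow subgroups of the Fitting subgroup. -/
theorem core_cases (q : ℕ) [hq : Fact q.Prime] :
    IsCyclic (Cfsg.pCore q H) ∨
      (q = 2 ∧ ∃ n, Nonempty (Cfsg.pCore q H ≃* QuaternionGroup (2 ^ n))) := by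
  rcases eq_or_ne q p with rfl | hne
  · left
    rw [hO]
    infer_instance
  set K : Subgroup (V ⋊[φ] H) := (SemidirectProduct.inl : V →* V ⋊[φ] H).range with hKdef
  set A : Subgroup (V ⋊[φ] H) :=
    (Cfsg.pCore q H).map (SemidirectProduct.inr : H →* V ⋊[φ] H) with hAdef
  have hconj : ∀ (v : V) (h : H), (SemidirectProduct.inr h : V ⋊[φ] H) * SemidirectProduct.inl v *
      (SemidirectProduct.inr h)⁻¹ = SemidirectProduct.inl (φ h v) := fun v h => by
    rw [SemidirectProduct.inl_aut, map_inv]
  have hK : K ≠ ⊥ := by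
    haveI := hφ.nontriv
    obtain ⟨v, hv⟩ := exists_ne (1 : V)
    intro h0
    apply hv
    have : (SemidirectProduct.inl v : V ⋊[φ] H) ∈ K := ⟨v, rfl⟩
    rw [h0, Subgroup.mem_bot] at this
    exact SemidirectProduct.inl_injective (this.trans (map_one _).symm)
  have hAK : A ≤ Subgroup.normalizer (K : Set (V ⋊[φ] H)) := by
    have : K.Normal := by
      rw [hKdef, SemidirectProduct.range_inl_eq_ker_rightHom]; infer_instance
    rw [Subgroup.normalizer_eq_top]; exact le_top
  have hqA : IsPGroup q A := (Cores.pCore_isPGroup (p := q) (G := H)).map _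
  haveI : Finite (V ⋊[φ] H) := Finite.of_equiv _ SemidirectProduct.equivProd.symm
  have hfpf : ∀ a ∈ A, a ≠ 1 → K ⊓ Subgroup.centralizer {a} = ⊥ := by
    rintro _ ⟨h, hh, rfl⟩ hne1
    rw [Subgroup.eq_bot_iff_forall]
    rintro _ ⟨⟨v, rfl⟩, hc⟩
    by_contra hv
    have hv1 : v ≠ 1 := fun h0 => hv (by rw [h0, map_one])
    have h1 := Subgroup.mem_centralizer_singleton_iff.mp hc
    have h2 : φ h v = v := SemidirectProduct.inl_injective
      ((hconj v h).symm.trans (mul_inv_eq_iff_eq_mul.mpr h1.symm))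
    obtain ⟨k, hk⟩ := hφ.stab h v hv1 h2
    obtain ⟨j, hj⟩ := IsPGroup.iff_orderOf.mp (Cores.pCore_isPGroup (p := q) (G := H)) ⟨h, hh⟩
    rw [Subgroup.orderOf_mk] at hj
    apply hne1
    rw [orderOf_eq_one_iff.mp (Nat.eq_one_of_dvd_coprimes
      (((Nat.coprime_primes hq.out hp.out).mpr hne).pow j k) (dvd_of_eq hj) (dvd_of_eq hk)), map_one]
  let S : Sylow q A := (hqA.to_subgroup ⊤).toSylow (by
    rw [Subgroup.index_top]; exact hq.out.not_dvd_one)
  have hS : (S : Subgroup A) = ⊤ := rfl
  let e : (S : Subgroup A) ≃* Cfsg.pCore q H :=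
    ((MulEquiv.subgroupCongr hS).trans Subgroup.topEquiv).trans
      ((Cfsg.pCore q H).equivMapOfInjective _ SemidirectProduct.inr_injective).symm
  rcases FrobeniusCompl.sylow_cyclic_or_quaternion hAK hK hfpf S with hcyc | ⟨h2, n, ⟨e'⟩⟩
  · exact Or.inl (isCyclic_of_surjective _ e.surjective)
  · exact Or.inr ⟨h2, n, ⟨e.symm.trans e'⟩⟩

theorem card_stabilizer_mul : ∃ k, Nat.card H = (Nat.card V - 1) * p ^ k := by
  classical
  letI := Fintype.ofFinite V
  haveI := hφ.nontriv
  obtain ⟨a, ha⟩ := exists_ne (1 : V)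
  letI : MulAction H V := MulAction.compHom V φ
  have hsm : ∀ (h : H) (v : V), h • v = φ h v := fun _ _ => rfl
  have hst : IsPGroup p (MulAction.stabilizer H a) := by
    refine IsPGroup.iff_orderOf.mpr fun h => ?_
    rw [← Subgroup.orderOf_coe]
    exact hφ.stab h a ha h.2
  obtain ⟨k, hk⟩ := IsPGroup.iff_card.mp hst
  refine ⟨k, ?_⟩
  rw [← hk, ← (MulAction.stabilizer H a).index_mul_card, MulAction.index_stabilizer]
  congr 1
  have hO' : MulAction.orbit H a = {(1 : V)}ᶜ := by
    ext b
    simp only [MulAction.mem_orbit_iff, Set.mem_compl_iff, Set.mem_singleton_iff, hsm]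
    exact ⟨by rintro ⟨h, rfl⟩ h1; exact ha ((φ h).injective (h1.trans (map_one _).symm)),
      fun hb => hφ.trans a b ha hb⟩
  rw [hO', Set.ncard_compl, Set.ncard_singleton]

/-- The quaternion case in characteristic three. -/
theorem index_core_eq_pow (hp3 : p = 3) (e : Cfsg.pCore 2 H ≃* QuaternionGroup 2) :
    ∃ a, (Cfsg.pCore 2 H).index = 3 ^ a := by
  classical
  subst hp3
  set Q := Cfsg.pCore 2 H with hQdef
  obtain ⟨i, j, z, hi, hj, hij, hz, hz2, hcomm, hgen⟩ :
      ∃ i j z : H, i ∈ Q ∧ j ∈ Q ∧ i * j = z * (j * i) ∧ i * i = z ∧ (z ≠ 1 ∧ z * z = 1 ∧ j * j = z) ∧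
        (z * i = i * z ∧ z * j = j * z) ∧ True := by
    refine ⟨e.symm (QuaternionGroup.a 1), e.symm (QuaternionGroup.xa 0),
      e.symm (QuaternionGroup.a 2), (e.symm _).2, (e.symm _).2, ?_, ?_, ⟨?_, ?_, ?_⟩, ⟨?_, ?_⟩,
      trivial⟩
    · rw [← Subgroup.coe_mul, ← Subgroup.coe_mul, ← Subgroup.coe_mul, ← map_mul, ← map_mul,
        ← map_mul]
      exact congrArg (fun t => ((e.symm t : Q) : H)) (by decide)
    · rw [← Subgroup.coe_mul, ← map_mul]
      exact congrArg (fun t => ((e.symm t : Q) : H)) (by decide)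
    · intro h
      have h1 : e.symm (QuaternionGroup.a 2) = 1 := Subtype.ext h
      rw [EmbeddingLike.map_eq_one_iff] at h1
      exact absurd h1 (by decide)
    · rw [← Subgroup.coe_mul, ← map_mul]
      exact (congrArg (fun t => ((e.symm t : Q) : H)) (show
        (QuaternionGroup.a 2 : QuaternionGroup 2) * QuaternionGroup.a 2 = 1 by decide)).trans
        (by rw [map_one, Subgroup.coe_one])
    · rw [← Subgroup.coe_mul, ← map_mul]
      exact congrArg (fun t => ((e.symm t : Q) : H)) (by decide)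
    · rw [← Subgroup.coe_mul, ← Subgroup.coe_mul, ← map_mul, ← map_mul]
      exact congrArg (fun t => ((e.symm t : Q) : H)) (by decide)
    · rw [← Subgroup.coe_mul, ← Subgroup.coe_mul, ← map_mul, ← map_mul]
      exact congrArg (fun t => ((e.symm t : Q) : H)) (by decide)
  obtain ⟨hz1, hzz, hjj⟩ := hz2
  -- `z` inverts everything
  have hzinv : ∀ v : V, φ z v = v⁻¹ := by
    intro v
    by_contra hne
    have hw : φ z v * v ≠ 1 := fun h => hne (eq_inv_of_mul_eq_one_left h)
    have hfix : φ z (φ z v * v) = φ z v * v := by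
      rw [map_mul, ← MulAut.mul_apply, ← map_mul, hzz, map_one, MulAut.one_apply, mul_comm]
    obtain ⟨k, hk⟩ := hφ.stab z _ hw hfix
    have h2 : orderOf z = 2 := orderOf_eq_prime (by rw [pow_two, hzz]) hz1
    rw [h2] at hk
    rcases k with _ | k
    · simp at hk
    · have := Nat.le_self_pow (Nat.succ_ne_zero k) 3; omega
  have hmm : ∀ (g h : H) (v : V), φ g (φ h v) = φ (g * h) v := fun g h v => by
    rw [map_mul, MulAut.mul_apply]
  let s : V →* V := (φ i).toMonoidHom * (φ j).toMonoidHom
  have hs' : ∀ v, s v = φ i v * φ j v := fun v => rfl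
  have hss : ∀ v, s (s v) = v := by
    intro v
    rw [hs', hs', map_mul, map_mul, hmm, hmm, hmm, hmm, hz, hjj, hzinv, hij, map_mul φ z,
      MulAut.mul_apply, hzinv]
    have h1 : v⁻¹ * (φ (j * i) v)⁻¹ * (φ (j * i) v * v⁻¹) = v⁻¹ * v⁻¹ := by group
    rw [h1]
    have h2 := hφ.pow v
    rw [← mul_inv, inv_eq_iff_mul_eq_one]
    rw [show v * v * v = v ^ 3 by rw [pow_succ, pow_two], h2]
  obtain ⟨k, hk⟩ : ∃ k, k = i * j := ⟨_, rfl⟩
  have hsk : ∀ v, s (φ k v) = (φ k (s v))⁻¹ := by
    intro v
    have e1 : i * k = z * j := by rw [hk, ← mul_assoc, hz]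
    have e2 : j * k = i := by
      rw [hk, hij, ← mul_assoc, ← hcomm.2, mul_assoc, ← mul_assoc j j i, hjj, ← mul_assoc, hzz, one_mul]
    have e3 : k * i = j := by
      rw [hk, hij, mul_assoc, mul_assoc j i i, hz, ← hcomm.2, ← mul_assoc, hzz, one_mul]
    have e4 : k * j = z * i := by rw [hk, mul_assoc, hjj, hcomm.1]
    rw [hs', hs', map_mul, mul_inv, hmm, hmm, hmm, hmm, e1, e2, e3, e4, map_mul φ z j,
      MulAut.mul_apply, hzinv, map_mul φ z i, MulAut.mul_apply, hzinv, inv_inv]
  let Vp : Subgroup V := MonoidHom.eqLocus s (MonoidHom.id V)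
  let Vm : Subgroup V := MonoidHom.eqLocus s (MonoidHom.id V)⁻¹
  have hmp : ∀ v, v ∈ Vp ↔ s v = v := fun v => Iff.rfl
  have hmm' : ∀ v, v ∈ Vm ↔ s v = v⁻¹ := fun v => Iff.rfl
  have hPM : Nat.card Vp = Nat.card Vm := by
    refine Nat.le_antisymm
      (Nat.card_le_card_of_injective (fun v => ⟨φ k v, by
        rw [hmm', hsk, (hmp v).mp v.2]⟩) fun a b h => Subtype.ext ((φ k).injective (congrArg Subtype.val h)))
      (Nat.card_le_card_of_injective (fun v => ⟨φ k v, by
        rw [hmp, hsk, (hmm' v).mp v.2, map_inv, inv_inv]⟩) fun a b h => Subtype.ext ((φ k).injective (congrArg Subtype.val h)))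
  have hVsq : Nat.card V = Nat.card Vp * Nat.card Vp := by
    conv_rhs => arg 2; rw [hPM]
    rw [← Nat.card_prod]
    symm
    refine Nat.card_eq_of_bijective (fun x : Vp × Vm => (x.1 : V) * x.2) ⟨fun a b hab => ?_, fun v => ?_⟩
    · have hu : ((a.1 / b.1 : Vp) : V) = ((b.2 / a.2 : Vm) : V) := by
        push_cast
        rw [div_eq_div_iff_mul_eq_mul, mul_comm (b.2 : V)]
        exact hab
      have h1 := (hmp _).mp (a.1 / b.1).2
      have h2 := (hmm' _).mp (b.2 / a.2).2
      rw [← hu, h1] at h2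
      have h3 : ((a.1 / b.1 : Vp) : V) = 1 := by
        have h4 := hφ.pow ((a.1 / b.1 : Vp) : V)
        rw [pow_succ, pow_two, show ((a.1 / b.1 : Vp) : V) * ((a.1 / b.1 : Vp) : V) = 1 from
          mul_eq_one_iff_eq_inv.mpr h2, one_mul] at h4
        exact h4
      refine Prod.ext ?_ ?_
      · exact Subtype.ext (div_eq_one.mp (by simpa using h3))
      · exact Subtype.ext (div_eq_one.mp (by simpa using hu.symm.trans h3)).symm
    · refine ⟨(⟨(v * s v) ^ 2, ?_⟩, ⟨(v * (s v)⁻¹) ^ 2, ?_⟩), ?_⟩
      · rw [hmp, map_pow, map_mul, hss, mul_comm]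
      · rw [hmm', map_pow, map_mul, map_inv, hss, ← inv_pow, mul_inv, inv_inv, mul_comm]
      · show (v * s v) ^ 2 * (v * (s v)⁻¹) ^ 2 = v
        rw [← mul_pow, mul_mul_mul_comm, mul_inv_cancel, mul_one, ← pow_two, ← pow_mul,
          show 2 * 2 = 3 + 1 from rfl, pow_add, hφ.pow, one_mul, pow_one]
  set r := Nat.card Vp with hrdef
  -- the centraliser of `Q`
  set C := Subgroup.centralizer (Q : Set H) with hCdef
  have hCfree : ∀ q a : ℕ, q.Prime → q ≠ 3 → q ^ a ∣ Nat.card C → q ^ a ∣ r - 1 := by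
    intro q a hq hq3 hqa
    haveI := Fact.mk hq
    obtain ⟨A, hA⟩ := Sylow.exists_subgroup_card_pow_prime q hqa
    have hAC : ∀ x : A, ((x : C) : H) ∈ C := fun x => x.1.2
    let X := {v : Vp // v ≠ 1}
    letI : MulAction A X :=
      { smul := fun x v => ⟨⟨φ ((x : C) : H) (v.1 : V), by
            have c1 : i * ((x : C) : H) = ((x : C) : H) * i :=
              Subgroup.mem_centralizer_iff.mp (hAC x) i hi
            have c2 : j * ((x : C) : H) = ((x : C) : H) * j :=
              Subgroup.mem_centralizer_iff.mp (hAC x) j hj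
            rw [hmp, hs', hmm, hmm, c1, c2, ← hmm, ← hmm, ← map_mul, ← hs', (hmp _).mp v.1.2]⟩,
          fun h => v.2 (Subtype.ext ((φ ((x : C) : H)).injective
            ((congrArg Subtype.val h).trans (map_one _).symm)))⟩
        one_smul := fun v => Subtype.ext (Subtype.ext (by
          show φ (((1 : A) : C) : H) (v.1 : V) = v.1
          simp))
        mul_smul := fun x y v => Subtype.ext (Subtype.ext (by
          show φ (((x * y : A) : C) : H) (v.1 : V) = φ ((x : C) : H) (φ ((y : C) : H) (v.1 : V))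
          rw [hmm]; rfl)) }
    have hfree : ∀ v : X, MulAction.stabilizer A v = ⊥ := by
      intro v
      rw [Subgroup.eq_bot_iff_forall]
      intro x hx
      have h1 : φ ((x : C) : H) (v.1 : V) = v.1 :=
        congrArg (fun t : X => (t.1 : V)) (MulAction.mem_stabilizer_iff.mp hx)
      obtain ⟨k', hk'⟩ := hφ.stab _ _ (fun h => v.2 (Subtype.ext h)) h1
      obtain ⟨j', hj'⟩ := IsPGroup.iff_orderOf.mp (IsPGroup.of_card (p := q) hA) x
      rw [Subgroup.orderOf_coe, Subgroup.orderOf_coe, hj'] at hk'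
      refine orderOf_eq_one_iff.mp (Nat.eq_one_of_dvd_coprimes
        (((Nat.coprime_primes hq Nat.prime_three).mpr hq3).pow j' k') (dvd_of_eq hj')
        (hj'.trans hk' ▸ dvd_rfl))
    have hX : Nat.card X = r - 1 := by
      rw [hrdef]
      letI := Fintype.ofFinite Vp
      rw [Nat.card_eq_fintype_card, Nat.card_eq_fintype_card, Fintype.card_subtype_compl,
        Fintype.card_subtype_eq]
    letI : Fintype (MulAction.orbitRel.Quotient A X) := Fintype.ofFinite _
    rw [← hA, ← hX, Nat.card_congr (MulAction.selfEquivSigmaOrbits A X), Nat.card_sigma]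
    refine Finset.dvd_sum fun o _ => dvd_of_eq ?_
    rw [Nat.card_congr (MulAction.orbitEquivQuotientStabilizer A _), hfree,
      ← Subgroup.index_eq_card, Subgroup.index_bot]
  obtain ⟨a, ha⟩ := card_stabilizer_mul hs hO hφ
  have h24 : Nat.card H ∣ 24 * Nat.card C := by
    rw [← C.index_mul_card]
    refine Nat.mul_dvd_mul_right ?_ _
    let f : H →* MulAut (QuaternionGroup 2) :=
      (MulAut.congr e).toMonoidHom.comp (MulAut.conjNormal (H := Q))
    have hker : f.ker ≤ C := fun x hx => mem_centralizer_of_conjNormal ((MulAut.congr e).injective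
      ((MonoidHom.mem_ker.mp hx).trans (map_one _).symm))
    exact (Subgroup.index_dvd_of_le hker).trans (by
      rw [Subgroup.index_ker]
      exact (Subgroup.card_subgroup_dvd_card _).trans PermB.IndexTwo.card_mulAut_quaternion_dvd)
  have hr1 : 1 < r := by
    haveI := hφ.nontriv
    have h := Finite.one_lt_card (α := V)
    rw [hVsq] at h
    by_contra h'
    interval_cases r <;> omega
  have hr3 : Nat.Coprime (r * r - 1) 3 := by
    refine (Nat.Prime.coprime_iff_not_dvd Nat.prime_three).mpr (fun h => ?_) |>.symm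
    have hVp : IsPGroup 3 V := fun v => ⟨1, by rw [pow_one]; exact hφ.pow v⟩
    obtain ⟨m, hm⟩ := IsPGroup.iff_card.mp hVp
    have h9 : 3 ∣ r * r := by
      rw [← hVsq, hm]
      refine dvd_pow_self 3 ?_
      rintro rfl
      rw [hVsq, pow_zero] at hm
      have := Nat.mul_le_mul hr1.le hr1
      omega
    have hpos : 1 ≤ r * r := Nat.mul_pos (by omega) (by omega)
    omega
  have h8 : r * r - 1 ∣ 8 * (r - 1) := by
    have h1 : r * r - 1 ∣ 24 * Nat.card C := by
      refine (Dvd.intro (3 ^ a) ?_).trans h24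
      rw [← hVsq]; exact ha.symm
    have h2 : r * r - 1 ∣ 8 * ordCompl[3] (Nat.card C) := by
      have h3 : 24 * Nat.card C = 3 * (ordProj[3] (Nat.card C) * (8 * ordCompl[3] (Nat.card C))) := by
        conv_lhs => rw [← Nat.ordProj_mul_ordCompl_eq_self (Nat.card C) 3]
        ring
      rw [h3] at h1
      exact (hr3.pow_right _).dvd_of_dvd_mul_left (hr3.dvd_of_dvd_mul_left h1)
    refine h2.trans (Nat.mul_dvd_mul_left 8 ?_)
    rw [Nat.dvd_iff_prime_pow_dvd_dvd]
    intro q a hq hqa
    rcases Nat.eq_zero_or_pos a with rfl | ha0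
    · simp
    refine hCfree q a hq ?_ (hqa.trans (Nat.ordCompl_dvd _ _))
    rintro rfl
    exact Nat.not_dvd_ordCompl Nat.prime_three Nat.card_pos.ne'
      ((dvd_pow_self 3 ha0.ne').trans hqa)
  have hr : r = 3 := by
    have h1 : r * r - 1 = (r + 1) * (r - 1) := by
      obtain ⟨t, ht⟩ := Nat.exists_eq_add_of_le hr1.le
      rw [ht, Nat.add_sub_cancel_left]
      refine Nat.sub_eq_of_eq_add ?_
      ring
    rw [h1] at h8
    have h2 : r + 1 ∣ 8 := Nat.dvd_of_mul_dvd_mul_right (by omega) h8
    have h3 : r ≤ 7 := by have := Nat.le_of_dvd (by norm_num) h2; omega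
    rw [show r * r - 1 = (r + 1) * (r - 1) from h1] at hr3
    revert h2 hr3 hr1 h3
    generalize r = t
    intro hr1 hr3 h2 h3
    interval_cases t <;> first | rfl | (exact absurd h2 (by decide)) | (exact absurd hr3 (by decide))
  refine ⟨a, ?_⟩
  have hQ8 : Nat.card Q = 8 := by
    rw [Nat.card_congr e.toEquiv, Nat.card_eq_fintype_card, QuaternionGroup.card]
  have := Q.card_mul_index
  rw [hQ8, ha, hVsq, hr] at this
  omega

/-- The main structural result. -/
theorem hasNormalPComplement :
    Cfsg.HasNormalPComplement p H ∧ ∀ Q : Sylow p H, IsMulCommutative (Q : Subgroup H) := by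
  classical
  have key : ∀ x ∈ commutator H, ∀ q : ℕ, q.Prime → IsCyclic (Cfsg.pCore q H) →
      x ∈ Subgroup.centralizer (Cfsg.pCore q H : Set H) := fun x hx q _ hc => by
    haveI := hc
    exact commutator_le_centralizer_of_isCyclic _ hx
  by_cases hall : ∀ q : ℕ, q.Prime → IsCyclic (Cfsg.pCore q H)
  · exact finish_of_commutator fun x hx hxp =>
      eq_one_of_centralizes hs hO hxp fun q hq => key x hx q hq (hall q hq)
  push Not at hall
  obtain ⟨q, hq, hnc⟩ := hall
  haveI := Fact.mk hq
  obtain ⟨rfl, n, ⟨e⟩⟩ := (core_cases hs hO hφ q).resolve_left hnc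
  have hp2 : p ≠ 2 := by
    rintro rfl
    exact hnc (by rw [hO]; infer_instance)
  have hother : ∀ q : ℕ, q.Prime → q ≠ 2 → IsCyclic (Cfsg.pCore q H) := by
    intro q hq hq2
    haveI := Fact.mk hq
    exact (core_cases hs hO hφ q).resolve_right fun h => hq2 h.1
  let f : H →* MulAut (QuaternionGroup (2 ^ n)) :=
    (MulAut.congr e).toMonoidHom.comp (MulAut.conjNormal (H := Cfsg.pCore 2 H))
  have hf : ∀ x, f x = 1 → x ∈ Subgroup.centralizer (Cfsg.pCore 2 H : Set H) := fun x hx =>
    mem_centralizer_of_conjNormal ((MulAut.congr e).injective (hx.trans (map_one _).symm))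
  have small : ∀ m : ℕ, (∀ α : MulAut (QuaternionGroup (2 ^ n)), orderOf α ∣ m) → m.Coprime p →
      Cfsg.HasNormalPComplement p H ∧ ∀ Q : Sylow p H, IsMulCommutative (Q : Subgroup H) := by
    intro m hm hmp
    refine finish_of_commutator fun x hx hxp => eq_one_of_centralizes hs hO hxp fun q hq => ?_
    rcases eq_or_ne q 2 with rfl | hq2
    · obtain ⟨k, hk⟩ := hxp
      refine hf x (orderOf_eq_one_iff.mp (Nat.eq_one_of_dvd_coprimes (hmp.pow_right k) (hm _) ?_))
      exact hk ▸ orderOf_map_dvd f x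
    · exact key x hx q hq (hother q hq hq2)
  rcases n with _ | _ | n
  · exfalso
    have : IsCyclic (QuaternionGroup (2 ^ 0)) := by
      rw [pow_zero]; exact QuaternionGroup.quaternionGroup_one_isCyclic
    exact hnc (isCyclic_of_surjective _ e.symm.surjective)
  · rcases eq_or_ne p 3 with hp3 | hp3
    · -- `p = 3` and `Q` is quaternion of order eight
      obtain ⟨a, ha⟩ := index_core_eq_pow hs hO hφ hp3 e
      subst hp3
      set Q := Cfsg.pCore 2 H
      have hQ8 : Nat.card Q = 8 := by
        rw [Nat.card_congr e.toEquiv, Nat.card_eq_fintype_card, QuaternionGroup.card]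
        rfl
      have hcop : ∀ P : Sylow 3 H, (Nat.card Q).Coprime (Nat.card (P : Subgroup H)) := by
        intro P
        obtain ⟨k, hk⟩ := IsPGroup.iff_card.mp P.isPGroup'
        rw [hQ8, hk]
        exact Nat.Coprime.pow_right _ (by norm_num)
      have hcard : ∀ P : Sylow 3 H, Nat.card (P : Subgroup H) = 3 ^ a := by
        intro P
        have h1 : Nat.card H = 8 * 3 ^ a := by rw [← Q.card_mul_index, hQ8, ha]
        rw [P.card_eq_multiplicity, h1, Nat.factorization_mul (by norm_num) (by positivity),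
          Finsupp.add_apply, Nat.factorization_eq_zero_of_not_dvd (by norm_num : ¬ 3 ∣ 8),
          Nat.prime_three.factorization_pow, Finsupp.single_eq_same, zero_add]
      refine ⟨⟨default, Q, inferInstance, ?_⟩, fun P => ?_⟩
      · refine Subgroup.isComplement'_of_coprime ?_ (hcop default)
        rw [hQ8, hcard, ← Q.card_mul_index, hQ8, ha]
      · have hinj : Function.Injective (f.comp (P : Subgroup H).subtype) := by
          rw [injective_iff_map_eq_one]
          intro x hx
          obtain ⟨k, hk⟩ := IsPGroup.iff_orderOf.mp P.isPGroup' x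
          refine Subtype.ext (eq_one_of_centralizes hs hO ⟨k, by rwa [Subgroup.orderOf_coe]⟩
            fun q hq => ?_)
          rcases eq_or_ne q 2 with rfl | hq2
          · exact hf x hx
          · have hbot : Cfsg.pCore q H = ⊥ := by
              haveI := Fact.mk hq
              rcases eq_or_ne q 3 with rfl | hq3
              · exact hO
              obtain ⟨t, ht⟩ := IsPGroup.iff_card.mp (Cores.pCore_isPGroup (p := q) (G := H))
              have h1 : q ^ t ∣ 8 * 3 ^ a := by
                rw [← ht, ← hQ8, ← ha, Q.card_mul_index]; exact Subgroup.card_subgroup_dvd_card _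
              refine Subgroup.card_eq_one.mp (ht.trans (Nat.eq_one_of_dvd_coprimes (b := 8 * 3 ^ a)
                (Nat.Coprime.pow_left t ?_) dvd_rfl h1))
              exact Nat.Coprime.mul_right
                (Nat.Coprime.pow_right 3 ((Nat.coprime_primes hq Nat.prime_two).mpr hq2))
                (Nat.Coprime.pow_right a ((Nat.coprime_primes hq Nat.prime_three).mpr hq3))
            rw [hbot]
            simp [Subgroup.mem_centralizer_iff]
        have hdvd : Nat.card (P : Subgroup H) ∣ 24 :=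
          (Subgroup.card_dvd_of_injective _ hinj).trans PermB.IndexTwo.card_mulAut_quaternion_dvd
        have h3 : Nat.card (P : Subgroup H) ∣ 3 := by
          rw [hcard] at hdvd ⊢
          exact (Nat.Coprime.pow_left a (show Nat.Coprime 3 8 by norm_num)).dvd_of_dvd_mul_left
            (show 3 ^ a ∣ 8 * 3 from hdvd)
        haveI : IsCyclic (P : Subgroup H) := by
          rcases (Nat.dvd_prime Nat.prime_three).mp h3 with h | h
          · haveI := (Nat.card_eq_one_iff_unique.mp h).1
            infer_instance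
          · exact isCyclic_of_prime_card h
        exact IsCyclic.isMulCommutative
    · refine small 24 (fun α => (orderOf_dvd_natCard α).trans
        PermB.IndexTwo.card_mulAut_quaternion_dvd) ?_
      exact Nat.Coprime.mul_left (show Nat.Coprime (2 ^ 3) p from
        Nat.Coprime.pow_left 3 ((Nat.coprime_primes Nat.prime_two hp.out).mpr (Ne.symm hp2)))
        ((Nat.coprime_primes Nat.prime_three hp.out).mpr (Ne.symm hp3))
  · obtain ⟨k, hk⟩ := IsPGroup.iff_card.mp (FusionSys.isPGroup_mulAut_quaternion (n + 2) (by omega))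
    exact small (2 ^ k) (fun α => hk ▸ orderOf_dvd_natCard α)
      (Nat.Coprime.pow_left k ((Nat.coprime_primes Nat.prime_two hp.out).mpr (Ne.symm hp2)))

end Cfsg.Agent.Gagola
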