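import Cfsg.Agent.Gagola.Char
import Cfsg.Agent.Gagola.Linear
import Cfsg.Agent.PGroup.Basic

/-!
# The top of a solvable group with a Gagola character
-/

set_option autoImplicit false
set_option linter.style.haveILetI false
set_option linter.unusedSectionVars false

namespace Cfsg.Agent.Gagola

open Cfsg

universe u

variable {G : Type u} [Group G] [Finite G]

theorem solvable_top [hsol : Group.IsSolvable G] (hG : 2 < Nat.card G) (χ : IrrCharacter G)
    (hχ : Nat.card {C : ConjClasses G // ∃ g ∈ C.carrier, (χ : G → ℂ) g ≠ 0} = 2) :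
    ∃ p : ℕ, p.Prime ∧ (∀ q : ℕ, q.Prime → (pCore q G ≠ ⊥ ↔ q = p)) ∧
      HasNormalPComplement p (G ⧸ pCore p G) ∧
      ∀ Q : Sylow p (G ⧸ pCore p G), IsMulCommutative (Q : Subgroup (G ⧸ pCore p G)) := by
  classical
  obtain ⟨N, hd⟩ := exists_data hG χ hχ
  obtain ⟨p, hp, hc⟩ := hd.exists_config
  haveI := Fact.mk hp
  haveI := hd.normal
  refine ⟨p, hp, fun q hq => ⟨fun hne => ?_, ?_⟩, ?_⟩
  · haveI := Fact.mk hq
    have h1 : N ≤ pCore q G := hd.le_of_normal inferInstance hne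
    have h2 : IsPGroup q N := (Cores.pCore_isPGroup).to_le h1
    by_contra hqp
    obtain ⟨a, ha, ha1⟩ := hc.exists_ne_one
    obtain ⟨j, hj⟩ := IsPGroup.iff_orderOf.mp h2 ⟨a, ha⟩
    obtain ⟨k, hk⟩ := IsPGroup.iff_orderOf.mp hc.isPGroup ⟨a, ha⟩
    refine ha1 (congrArg Subtype.val (orderOf_eq_one_iff.mp (Nat.eq_one_of_dvd_coprimes
      (((Nat.coprime_primes hq hp).mpr hqp).pow j k) (dvd_of_eq hj) (dvd_of_eq hk))))
  · rintro rfl h0
    exact hc.ne_bot (le_bot_iff.mp (hc.le_pCore.trans h0.le))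
  set P₀ := pCore p G with hP₀
  -- `O_p(G)` centralises `N`
  have hcen : P₀ ≤ Subgroup.centralizer (N : Set G) := by
    have hP : IsPGroup p P₀ := Cores.pCore_isPGroup
    haveI : Nontrivial P₀ := by
      rw [Subgroup.nontrivial_iff_ne_bot]
      exact fun h0 => hc.ne_bot (le_bot_iff.mp (hc.le_pCore.trans h0.le))
    have hZ : (Subgroup.center P₀).map P₀.subtype ≠ ⊥ := by
      rw [Ne, Subgroup.map_eq_bot_iff_of_injective _ P₀.subtype_injective]
      exact hP.bot_lt_center.ne'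
    have hNZ : N ≤ (Subgroup.center P₀).map P₀.subtype := hd.le_of_normal inferInstance hZ
    intro x hx
    rw [Subgroup.mem_centralizer_iff]
    intro n hn
    obtain ⟨m, hm, rfl⟩ := hNZ hn
    exact (congrArg Subtype.val (Subgroup.mem_center_iff.mp hm ⟨x, hx⟩)).symm
  letI : CommGroup N := { (inferInstance : Group N) with
    mul_comm := fun a b => Subtype.ext (hc.comm a a.2 b b.2) }
  let φ₀ : G →* MulAut N := MulAut.conjNormal
  have hker : P₀ ≤ φ₀.ker := fun x hx => by
    rw [MonoidHom.mem_ker]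
    refine MulEquiv.ext fun n => Subtype.ext ?_
    rw [MulAut.conjNormal_apply, MulAut.one_apply, ← Subgroup.mem_centralizer_iff.mp (hcen hx) n n.2,
      mul_inv_cancel_right]
  let φ : G ⧸ P₀ →* MulAut N := QuotientGroup.lift P₀ φ₀ hker
  have hφap : ∀ (g : G) (n : N), ((φ g n : N) : G) = g * n * g⁻¹ := fun g n =>
    MulAut.conjNormal_apply g n
  have hact : Act p φ := by
    refine ⟨fun a => Subtype.ext (by simpa using hc.pow a a.2),
      (Subgroup.nontrivial_iff_ne_bot N).mpr hc.ne_bot, fun a b ha hb => ?_, fun h a ha hfix => ?_⟩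
    · obtain ⟨g, hg⟩ := isConj_iff.mp (hc.trans a a.2 b b.2 (fun h => ha (Subtype.ext h))
        (fun h => hb (Subtype.ext h)))
      exact ⟨(g : G ⧸ P₀), Subtype.ext ((hφap g a).trans hg)⟩
    · obtain ⟨g, rfl⟩ := QuotientGroup.mk_surjective h
      have h1 : g * (a : G) * g⁻¹ = a := by rw [← hφap, hfix]
      obtain ⟨k, hk⟩ := hc.orderOf_eq_pow a.2 (fun e => ha (Subtype.ext e))
        (mul_inv_eq_iff_eq_mul.mp h1)
      have h2 := orderOf_map_dvd (QuotientGroup.mk' P₀) g
      rw [hk] at h2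
      obtain ⟨i, -, hi⟩ := (Nat.dvd_prime_pow hp).mp h2
      exact ⟨i, hi⟩
  exact hasNormalPComplement inferInstance Cores.pCore_quotient_pCore_eq_bot hact

end Cfsg.Agent.Gagola
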