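import Cfsg.Agent.Gagola.Group

/-!
# Consequences of a Gagola configuration: Frobenius groups, Sylow centre, centralisers
-/

set_option autoImplicit false
set_option linter.style.haveILetI false

open scoped Pointwise

namespace Cfsg.Agent.Gagola

universe u

variable {G : Type u} [Group G] {p : ℕ} {N : Subgroup G}

theorem mem_conj_smul_iff {H : Subgroup G} {g x : G} :
    x ∈ MulAut.conj g • H ↔ g⁻¹ * x * g ∈ H := by
  rw [Subgroup.mem_pointwise_smul_iff_inv_smul_mem]
  simp [MulAut.smul_def]

/-- Counting the conjugates of a self-normalising TI subgroup. -/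
theorem card_frobeniusKernel [Finite G] {H : Subgroup G} (hH : Cfsg.IsFrobeniusComplement H) :
    (Cfsg.frobeniusKernel H).ncard = H.index := by
  classical
  let f : (G ⧸ H) × {a : H // a ≠ 1} → ↥((Cfsg.frobeniusKernel H)ᶜ) := fun qa =>
    ⟨qa.1.out * (qa.2.1 : G) * (qa.1.out)⁻¹, by
      rintro (h | h)
      · exact qa.2.2 (Subtype.ext (conj_eq_one_iff.mp h))
      · exact h qa.1.out (mem_conj_smul_iff.mpr (by simp [mul_assoc]))⟩
  have hbij : Function.Bijective f := by
    constructor
    · rintro ⟨q, a⟩ ⟨r, b⟩ h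
      have h1 : q.out * (a.1 : G) * (q.out)⁻¹ = r.out * (b.1 : G) * (r.out)⁻¹ :=
        congrArg Subtype.val h
      have h2 : (r.out)⁻¹ * q.out ∈ H := by
        by_contra hne
        have hmem : (b.1 : G) ∈ H ⊓ MulAut.conj ((r.out)⁻¹ * q.out) • H := by
          refine ⟨b.1.2, mem_conj_smul_iff.mpr ?_⟩
          have : ((r.out)⁻¹ * q.out)⁻¹ * (b.1 : G) * ((r.out)⁻¹ * q.out) = (a.1 : G) := by
            calc _ = (q.out)⁻¹ * (r.out * (b.1 : G) * (r.out)⁻¹) * q.out := by group
              _ = (a.1 : G) := by rw [← h1]; group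
          rw [this]; exact a.1.2
        rw [hH.2.2 _ hne, Subgroup.mem_bot] at hmem
        exact b.2 (Subtype.ext hmem)
      have hqr : q = r := by
        rw [← QuotientGroup.out_eq' q, ← QuotientGroup.out_eq' r]
        exact (QuotientGroup.eq.mpr h2).symm
      subst hqr
      exact Prod.ext rfl (Subtype.ext (Subtype.ext (by simpa using h1)))
    · rintro ⟨x, hx⟩
      have hx1 : x ≠ 1 := fun h => hx (Or.inl h)
      obtain ⟨g, hg⟩ : ∃ g : G, x ∈ MulAut.conj g • H := by
        by_contra h; push Not at h; exact hx (Or.inr h)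
      rw [mem_conj_smul_iff] at hg
      obtain ⟨h, hh⟩ := QuotientGroup.mk_out_eq_mul H g
      have ha : ((g : G ⧸ H).out)⁻¹ * x * (g : G ⧸ H).out ∈ H := by
        rw [hh]
        have := H.mul_mem (H.mul_mem (H.inv_mem h.2) hg) h.2
        simpa [mul_assoc] using this
      refine ⟨(g, ⟨⟨_, ha⟩, fun h1 => hx1 ?_⟩), Subtype.ext ?_⟩
      · have h2 : ((g : G ⧸ H).out)⁻¹ * x * (g : G ⧸ H).out = 1 := congrArg Subtype.val h1
        simpa using (conj_eq_one_iff (a := ((g : G ⧸ H).out)⁻¹) (b := x)).mp (by simpa using h2)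
      · simp [f, mul_assoc]
  have hc := Nat.card_eq_of_bijective f hbij
  rw [Nat.card_prod, Nat.card_coe_set_eq, Set.ncard_compl] at hc
  have hcard : Nat.card {a : H // a ≠ 1} = Nat.card H - 1 := by
    have h3 : ({a : H | a ≠ 1}) = ({1} : Set H)ᶜ := rfl
    have h4 := Set.ncard_compl ({1} : Set H)
    rw [Set.ncard_singleton] at h4
    rw [← h4, ← h3, ← Nat.card_coe_set_eq]
    rfl
  have hidx : H.index * Nat.card H = Nat.card G := by rw [mul_comm, H.card_mul_index]
  have hle : (Cfsg.frobeniusKernel H).ncard ≤ Nat.card G := by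
    rw [← Set.ncard_univ]; exact Set.ncard_le_ncard (Set.subset_univ _)
  rw [hcard] at hc
  have hpos : 0 < Nat.card H := Nat.card_pos
  have h5 : Nat.card (G ⧸ H) = H.index := rfl
  rw [h5, Nat.mul_sub, mul_one, hidx] at hc
  have hi : H.index ≤ Nat.card G := Nat.le_of_dvd Nat.card_pos H.index_dvd_card
  omega

/-- `N = O_p(G)` iff `G` is a doubly transitive Frobenius group with kernel `N`. -/
theorem Config.eq_pCore_iff (hc : Config p N) [Finite G] [hp : Fact p.Prime]
    (hG : 2 < Nat.card G) :
    N = Cfsg.pCore p G ↔ ∃ H : Subgroup G, Cfsg.IsFrobeniusComplement H ∧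
      Cfsg.frobeniusKernel H = (N : Set G) ∧ Nat.card H + 1 = Nat.card N := by
  haveI := hc.normal
  obtain ⟨a₀, ha₀, ha₀1⟩ := hc.exists_ne_one
  obtain ⟨n, hn⟩ := hc.isPGroup.exists_card_eq
  constructor
  · intro hN
    have hnd := hc.not_dvd_index hN
    have hcop : Nat.Coprime (Nat.card N) N.index := by
      rw [hn]; exact Nat.Coprime.pow_left n (hp.out.coprime_iff_not_dvd.mpr hnd)
    obtain ⟨H, hH⟩ := Subgroup.exists_right_complement'_of_coprime hcop
    have hHcard : Nat.card H = N.index := by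
      have h1 := hH.card_mul_card
      rw [← N.card_mul_index] at h1
      exact Nat.eq_of_mul_eq_mul_left Nat.card_pos h1
    have hdisj : ∀ x ∈ N, x ∈ H → x = 1 := fun x hxN hxH =>
      Subgroup.disjoint_def.mp hH.disjoint hxN hxH
    have hfree : ∀ g : G, g ∉ N → ∀ a ∈ N, g * a = a * g → a = 1 := by
      intro g hg a ha hga
      by_contra ha1
      obtain ⟨k, hk⟩ := hc.orderOf_eq_pow ha ha1 hga
      apply hg
      rw [← QuotientGroup.eq_one_iff, ← orderOf_eq_one_iff]
      have h1 : orderOf (g : G ⧸ N) ∣ p ^ k := hk ▸ orderOf_map_dvd (QuotientGroup.mk' N) g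
      exact Nat.eq_one_of_dvd_coprimes
        (Nat.Coprime.pow_left k (hp.out.coprime_iff_not_dvd.mpr hnd)) h1 (orderOf_dvd_natCard _)
    have hHN : Nat.card H + 1 = Nat.card N := by
      have hC : Subgroup.centralizer ({a₀} : Set G) = N := by
        refine le_antisymm (fun g hg => ?_) (fun g hg => ?_)
        · rw [Subgroup.mem_centralizer_singleton_iff] at hg
          by_contra hgN
          exact ha₀1 (hfree g hgN a₀ ha₀ hg)
        · rw [Subgroup.mem_centralizer_singleton_iff]
          exact hc.comm g hg a₀ ha₀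
      have := hc.card_centralizer_coprime_index ha₀ ha₀1
      rw [hC] at this
      rwa [hHcard]
    have hNtop : N ≠ ⊤ := by
      intro h
      have h1 : N.index = 1 := by rw [h, Subgroup.index_top]
      rw [hHcard, h1] at hHN
      have h2 : Nat.card N = Nat.card G := by rw [h, Subgroup.card_top]
      omega
    have hHbot : H ≠ ⊥ := by
      intro h
      have h1 : N.index = 1 := by rw [← hHcard, h, Subgroup.card_bot]
      exact hNtop (Subgroup.index_eq_one.mp h1)
    have hHtop : H ≠ ⊤ := by
      intro h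
      apply ha₀1
      exact hdisj a₀ ha₀ (h ▸ Subgroup.mem_top a₀)
    refine ⟨H, ⟨hHbot, hHtop, fun g hg => ?_⟩, ?_, hHN⟩
    · obtain ⟨m, hm, h, hh, rfl⟩ : ∃ m ∈ N, ∃ h ∈ H, m * h = g := by
        have h1 : g ∈ (N : Set G) * (H : Set G) := by rw [hH.mul_eq]; trivial
        obtain ⟨m, hm, h, hh, e⟩ := h1
        exact ⟨m, hm, h, hh, e⟩
      rw [Subgroup.eq_bot_iff_forall]
      rintro b ⟨hbH, hb'⟩
      replace hb' : (m * h)⁻¹ * b * (m * h) ∈ H := mem_conj_smul_iff.mp hb'
      have hb'' : m⁻¹ * b * m ∈ H := by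
        have := H.mul_mem (H.mul_mem hh hb') (H.inv_mem hh)
        simpa [mul_assoc] using this
      have h1 : b⁻¹ * (m⁻¹ * b * m) = 1 := by
        refine hdisj _ ?_ (H.mul_mem (H.inv_mem hbH) hb'')
        have h2 := N.mul_mem (hc.normal.conj_mem _ (N.inv_mem hm) b⁻¹) hm
        simpa [mul_assoc] using h2
      by_contra hb1
      have h2 : m⁻¹ * b * m = b := (inv_mul_eq_one.mp h1).symm
      have h3 : b * m = m * b := by
        calc b * m = m * (m⁻¹ * b * m) := by group
          _ = m * b := by rw [h2]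
      have hm1 : m = 1 := hfree b (fun hbN => hb1 (hdisj b hbN hbH)) m hm h3
      exact hg (by rw [hm1, one_mul]; exact hh)
    · ext x
      constructor
      · rintro (rfl | hx)
        · exact N.one_mem
        · by_contra hxN
          have hxN' : x ∉ N := hxN
          obtain ⟨m, hm, h, hh, e⟩ : ∃ m ∈ N, ∃ h ∈ H, m * h = x := by
            have h1 : x ∈ (N : Set G) * (H : Set G) := by rw [hH.mul_eq]; trivial
            obtain ⟨m, hm, h, hh, e⟩ := h1
            exact ⟨m, hm, h, hh, e⟩
          have hn' : x⁻¹ * h ∈ N := by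
            rw [← e]
            have := hc.normal.conj_mem _ (N.inv_mem hm) h⁻¹
            simpa [mul_assoc] using this
          obtain ⟨k, hk, hke⟩ := hc.exists_conj_of_fixfree (hfree x hxN') hn'
          rw [mul_inv_cancel_left] at hke
          refine hx k⁻¹ (mem_conj_smul_iff.mpr ?_)
          rw [inv_inv, hke]; exact hh
      · intro hx
        rcases eq_or_ne x 1 with rfl | hx1
        · exact Or.inl rfl
        · refine Or.inr fun g hg => hx1 ?_
          rw [mem_conj_smul_iff] at hg
          have h1 : g⁻¹ * x * g ∈ N := by simpa using hc.normal.conj_mem x hx g⁻¹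
          calc x = g * (g⁻¹ * x * g) * g⁻¹ := by group
            _ = 1 := by rw [hdisj _ h1 hg]; group
  · rintro ⟨H, hH, hker, hcard⟩
    have h1 : Nat.card N = H.index := by
      rw [← card_frobeniusKernel hH, hker, ← Nat.card_coe_set_eq]; rfl
    have h2 : N.index = Nat.card H := by
      have h3 := N.card_mul_index
      rw [← H.card_mul_index, mul_comm (Nat.card H), ← h1] at h3
      exact Nat.eq_of_mul_eq_mul_left Nat.card_pos h3
    have hnd : ¬ p ∣ N.index := by
      rw [h2]; intro h
      have hp1 : p ∣ Nat.card N := by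
        rcases Nat.eq_zero_or_pos n with rfl | hpos
        · exact absurd (Subgroup.card_eq_one.mp (by simpa using hn)) hc.ne_bot
        · exact hn ▸ dvd_pow_self p hpos.ne'
      exact hp.out.one_lt.ne' (Nat.dvd_one.mp ((Nat.dvd_add_right h).mp (hcard ▸ hp1)))
    refine le_antisymm hc.le_pCore (sSup_le ?_)
    rintro K ⟨hKn, hK⟩
    have hM : IsPGroup p (K.map (QuotientGroup.mk' N)) := hK.map _
    obtain ⟨j, hj⟩ := hM.exists_card_eq
    have h3 : Nat.card (K.map (QuotientGroup.mk' N)) = 1 :=
      Nat.eq_one_of_dvd_coprimes (Nat.Coprime.pow_left j (hp.out.coprime_iff_not_dvd.mpr hnd))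
        (hj ▸ dvd_refl _) (Subgroup.card_subgroup_dvd_card _)
    rw [Subgroup.card_eq_one, Subgroup.map_eq_bot_iff, QuotientGroup.ker_mk'] at h3
    exact h3

/-- Class sizes outside `N` survive in the quotient. -/
theorem Config.card_centralizer_quotient (hc : Config p N) [N.Normal] [Finite G] {x : G}
    (hx : x ∉ N) :
    Nat.card (Subgroup.centralizer ({x} : Set G)) =
      Nat.card (Subgroup.centralizer ({(x : G ⧸ N)} : Set (G ⧸ N))) := by
  classical
  set D := (Subgroup.centralizer ({(x : G ⧸ N)} : Set (G ⧸ N))).comap (QuotientGroup.mk' N) with hD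
  have hND : N ≤ D := by
    intro n hn
    rw [hD, Subgroup.mem_comap, Subgroup.mem_centralizer_singleton_iff, QuotientGroup.mk'_apply,
      (QuotientGroup.eq_one_iff n).mpr hn, one_mul, mul_one]
  have hCD : Subgroup.centralizer ({x} : Set G) ≤ D := by
    intro g hg
    rw [Subgroup.mem_centralizer_singleton_iff] at hg
    rw [hD, Subgroup.mem_comap, Subgroup.mem_centralizer_singleton_iff, QuotientGroup.mk'_apply,
      ← QuotientGroup.mk_mul, hg, QuotientGroup.mk_mul]
  have hDmem : ∀ g : G, g ∈ D ↔ x⁻¹ * (g * x * g⁻¹) ∈ N := by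
    intro g
    rw [hD, Subgroup.mem_comap, Subgroup.mem_centralizer_singleton_iff, QuotientGroup.mk'_apply,
      ← QuotientGroup.eq_one_iff, QuotientGroup.mk_mul, QuotientGroup.mk_mul, QuotientGroup.mk_mul,
      QuotientGroup.mk_inv, QuotientGroup.mk_inv, inv_mul_eq_one, eq_mul_inv_iff_mul_eq]
    exact eq_comm
  let f : D ⧸ (Subgroup.centralizer ({x} : Set G)).subgroupOf D → N :=
    Quotient.lift (fun g : D => (⟨x⁻¹ * (g * x * (g : G)⁻¹), (hDmem g).mp g.2⟩ : N)) (by
      intro a b hab
      have h1 : ((a⁻¹ * b : D) : G) * x = x * (a⁻¹ * b : D) :=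
        Subgroup.mem_centralizer_singleton_iff.mp (Subgroup.mem_subgroupOf.mp
          (QuotientGroup.leftRel_apply.mp hab))
      refine Subtype.ext ?_
      show x⁻¹ * ((a : G) * x * (a : G)⁻¹) = x⁻¹ * ((b : G) * x * (b : G)⁻¹)
      simp only [Subgroup.coe_mul, Subgroup.coe_inv] at h1
      congr 1
      calc (a : G) * x * (a : G)⁻¹ = a * (x * ((a : G)⁻¹ * b)) * (b : G)⁻¹ := by group
        _ = (b : G) * x * (b : G)⁻¹ := by rw [← h1]; group)
  have hf : Function.Bijective f := by
    constructor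
    · rintro ⟨a⟩ ⟨b⟩ hab
      have h1 : x⁻¹ * ((a : G) * x * (a : G)⁻¹) = x⁻¹ * ((b : G) * x * (b : G)⁻¹) :=
        congrArg Subtype.val hab
      apply QuotientGroup.eq.mpr
      rw [Subgroup.mem_subgroupOf, Subgroup.mem_centralizer_singleton_iff]
      simp only [Subgroup.coe_mul, Subgroup.coe_inv]
      calc (a : G)⁻¹ * b * x = (a : G)⁻¹ * ((b : G) * x * (b : G)⁻¹) * b := by group
        _ = (a : G)⁻¹ * ((a : G) * x * (a : G)⁻¹) * b := by rw [mul_left_cancel h1]
        _ = x * ((a : G)⁻¹ * b) := by group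
    · rintro ⟨n, hn⟩
      obtain ⟨g, hg⟩ := isConj_iff.mp (hc.coset x hx n hn)
      have hgD : g ∈ D := by rw [hDmem, hg, inv_mul_cancel_left]; exact hn
      refine ⟨QuotientGroup.mk ⟨g, hgD⟩, Subtype.ext ?_⟩
      show x⁻¹ * (g * x * g⁻¹) = n
      rw [hg, inv_mul_cancel_left]
  have h1 := Nat.card_eq_of_bijective f hf
  have h2 : Nat.card D = Nat.card N * Nat.card (Subgroup.centralizer ({x} : Set G)) := by
    rw [← h1, ← Nat.card_congr (Subgroup.subgroupOfEquivOfLe hCD).toEquiv,
      ← Subgroup.card_eq_card_quotient_mul_card_subgroup]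
  have h4 : N.index = (Subgroup.centralizer ({(x : G ⧸ N)} : Set (G ⧸ N))).index *
      Nat.card (Subgroup.centralizer ({(x : G ⧸ N)} : Set (G ⧸ N))) :=
    ((mul_comm _ _).trans (Subgroup.card_mul_index _)).symm
  have h5 := D.card_mul_index
  rw [hD, Subgroup.index_comap_of_surjective _ (QuotientGroup.mk'_surjective N), ← hD, h2,
    ← N.card_mul_index, h4, mul_assoc, mul_comm (Nat.card (Subgroup.centralizer ({x} : Set G)))] at h5
  exact Nat.eq_of_mul_eq_mul_left
    (Nat.pos_of_ne_zero Subgroup.index_ne_zero_of_finite) (Nat.eq_of_mul_eq_mul_left Nat.card_pos h5)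

/-- A `P`-class outside `N` has at least `|N|` elements. -/
theorem Config.no_small_class (hc : Config p N) [Finite G] [hp : Fact p.Prime] (P : Sylow p G)
    {z : (P : Subgroup G)} (hz : (z : G) ∉ N) (S : Subgroup (P : Subgroup G))
    (hS : ∀ g : (P : Subgroup G), z⁻¹ * (g * z * g⁻¹) ∈ S) : Nat.card N ≤ Nat.card S := by
  classical
  haveI := hc.normal
  obtain ⟨n, hn⟩ := hc.isPGroup.exists_card_eq
  obtain ⟨j, hj⟩ := (P.isPGroup'.to_subgroup (Subgroup.centralizer ({z} : Set (P : Subgroup G)))).exists_card_eq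
  obtain ⟨m, hm⟩ := P.isPGroup'.exists_card_eq
  have h1 : Nat.card (Subgroup.centralizer ({z} : Set (P : Subgroup G))) ∣
      Nat.card (Subgroup.centralizer ({(z : G)} : Set G)) := by
    rw [← Subgroup.card_map_of_injective (K := Subgroup.centralizer ({z} : Set (P : Subgroup G)))
      (P : Subgroup G).subtype_injective]
    refine Subgroup.card_dvd_of_le ?_
    rintro _ ⟨g, hg, rfl⟩
    rw [Subgroup.mem_centralizer_singleton_iff]
    exact congrArg Subtype.val (Subgroup.mem_centralizer_singleton_iff.mp hg)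
  rw [hc.card_centralizer_quotient hz] at h1
  have h2 : p ^ j * Nat.card N ∣ p ^ m := by
    have h3 : p ^ j * Nat.card N ∣ Nat.card G := by
      rw [← N.card_mul_index, mul_comm]
      exact mul_dvd_mul_left _ (hj ▸ h1.trans (Subgroup.card_subgroup_dvd_card _))
    rw [hn, ← pow_add] at h3 ⊢
    obtain ⟨Q, hQ⟩ := Sylow.exists_subgroup_card_pow_prime p h3
    obtain ⟨P', hP'⟩ := (IsPGroup.of_card (n := j + n) hQ).exists_le_sylow
    have h4 := Subgroup.card_dvd_of_le hP'
    rwa [hQ, P'.card_eq_multiplicity, ← P.card_eq_multiplicity, hm] at h4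
  have h4 : (Subgroup.centralizer ({z} : Set (P : Subgroup G))).index ≤ Nat.card S := by
    let f : (P : Subgroup G) ⧸ Subgroup.centralizer ({z} : Set (P : Subgroup G)) → S :=
      fun q => ⟨z⁻¹ * (q.out * z * q.out⁻¹), hS _⟩
    refine Nat.card_le_card_of_injective f ?_
    intro q r h
    have h5 : q.out * z * q.out⁻¹ = r.out * z * r.out⁻¹ :=
      mul_left_cancel (congrArg Subtype.val h)
    rw [← QuotientGroup.out_eq' q, ← QuotientGroup.out_eq' r]
    apply QuotientGroup.eq.mpr
    rw [Subgroup.mem_centralizer_singleton_iff]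
    calc q.out⁻¹ * r.out * z = q.out⁻¹ * (r.out * z * r.out⁻¹) * r.out := by group
      _ = q.out⁻¹ * (q.out * z * q.out⁻¹) * r.out := by rw [h5]
      _ = z * (q.out⁻¹ * r.out) := by group
  have h6 := (Subgroup.centralizer ({z} : Set (P : Subgroup G))).card_mul_index
  rw [hj, hm] at h6
  refine le_trans ?_ h4
  refine Nat.le_of_mul_le_mul_left ?_ (pow_pos hp.out.pos j)
  rw [h6]
  exact Nat.le_of_dvd (pow_pos hp.out.pos m) h2

theorem Config.le_sylow (hc : Config p N) [Finite G] [Fact p.Prime] (P : Sylow p G) :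
    N ≤ (P : Subgroup G) :=
  hc.le_pCore.trans (sSup_le fun _ ⟨hKn, hK⟩ => by
    haveI := hKn
    obtain ⟨Q, hQ⟩ := hK.exists_le_sylow
    obtain ⟨g, rfl⟩ := MulAction.exists_smul_eq G Q P
    intro x hx
    rw [Sylow.coe_subgroup_smul, mem_conj_smul_iff]
    exact hQ (by simpa using hKn.conj_mem x hx g⁻¹))

theorem Config.center_le (hc : Config p N) [Finite G] [Fact p.Prime] (P : Sylow p G) :
    (Subgroup.center (P : Subgroup G)).map (P : Subgroup G).subtype ≤ N := by
  rintro _ ⟨z, hz, rfl⟩
  by_contra hzN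
  have h := hc.no_small_class P hzN ⊥ (fun g => by
    rw [Subgroup.mem_bot, Subgroup.mem_center_iff.mp hz g]; group)
  rw [Subgroup.card_bot] at h
  exact hc.ne_bot (Subgroup.card_eq_one.mp (le_antisymm h Nat.card_pos))

theorem Config.center_eq_iff (hc : Config p N) [Finite G] [Fact p.Prime] (P : Sylow p G) :
    (Subgroup.center (P : Subgroup G)).map (P : Subgroup G).subtype = N ↔
      (P : Subgroup G).Normal := by
  constructor
  · intro h
    obtain ⟨a, ha, ha1⟩ := hc.exists_ne_one
    have hP : ∀ b ∈ N, b ≠ 1 → Subgroup.centralizer ({b} : Set G) = P := by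
      intro b hb hb1
      obtain ⟨Q, hQ⟩ := hc.exists_sylow_eq hb hb1
      have hle : (P : Subgroup G) ≤ Q := by
        rw [← hQ]
        intro g hg
        rw [← h] at hb
        obtain ⟨c, hc', rfl⟩ := hb
        rw [Subgroup.mem_centralizer_singleton_iff]
        exact congrArg Subtype.val (Subgroup.mem_center_iff.mp hc' ⟨g, hg⟩)
      rw [hQ]
      exact P.is_maximal' Q.isPGroup' hle
    refine ⟨fun x hx g => ?_⟩
    rw [← hP _ (hc.normal.conj_mem a ha g) (by simpa using ha1),
      Subgroup.mem_centralizer_singleton_iff]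
    rw [← hP a ha ha1, Subgroup.mem_centralizer_singleton_iff] at hx
    calc g * x * g⁻¹ * (g * a * g⁻¹) = g * (x * a) * g⁻¹ := by group
      _ = g * a * g⁻¹ * (g * x * g⁻¹) := by rw [hx]; group
  · intro hn
    refine le_antisymm (hc.center_le P) fun b hb => ?_
    refine ⟨⟨b, hc.le_sylow P hb⟩, ?_, rfl⟩
    rw [SetLike.mem_coe, Subgroup.mem_center_iff]
    intro g
    rcases eq_or_ne b 1 with rfl | hb1
    · exact Subtype.ext (by simp)
    obtain ⟨Q, hQ⟩ := hc.exists_sylow_eq hb hb1
    haveI : Unique (Sylow p G) := Sylow.unique_of_normal P hn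
    have hg : (g : G) ∈ Subgroup.centralizer ({b} : Set G) := by
      rw [hQ, Subsingleton.elim Q P]; exact g.2
    exact Subtype.ext (Subgroup.mem_centralizer_singleton_iff.mp hg)

theorem Config.exists_upperCentralSeries_eq (hc : Config p N) [Finite G] [Fact p.Prime]
    (P : Sylow p G) : ∃ i : ℕ,
      Subgroup.upperCentralSeries (P : Subgroup G) i = N.subgroupOf (P : Subgroup G) := by
  by_contra h
  push Not at h
  haveI := P.isPGroup'.isNilpotent
  have hle : ∀ i, Subgroup.upperCentralSeries (P : Subgroup G) i ≤ N.subgroupOf (P : Subgroup G) := by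
    intro i
    induction i with
    | zero => simp
    | succ i ih =>
      intro z hz
      by_contra hzN
      have hbig := hc.no_small_class P (z := z) hzN
        (Subgroup.upperCentralSeries (P : Subgroup G) i) (fun g => by
        have h1 := Subgroup.mem_upperCentralSeries_succ_iff.mp
          ((Subgroup.upperCentralSeries _ (i + 1)).inv_mem hz) g
        simpa [mul_assoc, commutatorElement_def] using h1)
      have hlt : Nat.card (Subgroup.upperCentralSeries (P : Subgroup G) i) <
          Nat.card (N.subgroupOf (P : Subgroup G)) := by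
        refine lt_of_le_of_ne (Nat.card_mono (Set.toFinite _) ih) fun e => h i ?_
        exact Subgroup.eq_of_le_of_card_ge ih e.ge
      rw [Nat.card_congr (Subgroup.subgroupOfEquivOfLe (hc.le_sylow P)).toEquiv] at hlt
      omega
  obtain ⟨c, hc'⟩ := Group.IsNilpotent.nilpotent (P : Subgroup G)
  exact h c (le_antisymm (hle c) (hc' ▸ le_top))

end Cfsg.Agent.Gagola
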